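import Mathlib

/-! Orders of abelian subgroups of symmetric and alternating groups. -/

set_option autoImplicit false

namespace Cfsg.Agent.H9.AbSym

open Equiv Subgroup

variable {Ω : Type*} [Fintype Ω] [DecidableEq Ω]

def Supp (A : Subgroup (Perm Ω)) (S : Finset Ω) : Prop := ∀ a ∈ A, ∀ x, x ∉ S → a x = x

def Comm (A : Subgroup (Perm Ω)) : Prop := ∀ a ∈ A, ∀ b ∈ A, a * b = b * a

/-- the orbit size -/
noncomputable def osz (A : Subgroup (Perm Ω)) (x : Ω) : ℕ := (MulAction.orbit A x).ncard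

theorem osz_mono {A B : Subgroup (Perm Ω)} (h : B ≤ A) (x : Ω) : osz B x ≤ osz A x := by
  refine Set.ncard_le_ncard ?_ (Set.toFinite _)
  rintro _ ⟨b, rfl⟩
  exact ⟨⟨b, h b.2⟩, rfl⟩

theorem step {A : Subgroup (Perm Ω)} {S : Finset Ω} (hA : Comm A) (hS : Supp A S) {x : Ω} (hx : x ∈ S) :
    ∃ (B : Subgroup (Perm Ω)) (T : Finset Ω), B ≤ A ∧ Supp B T ∧ T.card + osz A x = S.card ∧ 1 ≤ osz A x ∧
      Nat.card A = osz A x * Nat.card B := by
  classical
  set O := (MulAction.orbit A x).toFinset with hO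
  have hOS : O ⊆ S := by
    intro y hy
    rw [hO, Set.mem_toFinset] at hy
    obtain ⟨a, rfl⟩ := hy
    by_contra hn
    have h1 : (a : Perm Ω)⁻¹ ((a : Perm Ω) x) = (a : Perm Ω) x := hS _ (inv_mem a.2) _ hn
    simp only [Perm.coe_inv, symm_apply_apply] at h1
    exact hn (show (a : Perm Ω) x ∈ S from h1 ▸ hx)
  have hOc : O.card = osz A x := by rw [hO, osz, Set.ncard_eq_toFinset_card']
  refine ⟨(MulAction.stabilizer A x).map A.subtype, S \ O, map_subtype_le _, ?_, ?_, ?_, ?_⟩
  · rintro _ ⟨b, hb, rfl⟩ y hy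
    by_cases h1 : y ∈ S
    · have h2 : y ∈ O := by
        by_contra h2; exact hy (Finset.mem_sdiff.2 ⟨h1, h2⟩)
      rw [hO, Set.mem_toFinset] at h2
      obtain ⟨a, rfl⟩ := h2
      have hb' : (b : Perm Ω) x = x := hb
      show (b : Perm Ω) ((a : Perm Ω) x) = (a : Perm Ω) x
      rw [← Perm.mul_apply, hA _ b.2 _ a.2, Perm.mul_apply, hb']
    · exact hS _ b.2 y h1
  · rw [← hOc, Finset.card_sdiff_add_card_eq_card hOS]
  · rw [← hOc]
    exact Finset.card_pos.2 ⟨x, by rw [hO, Set.mem_toFinset]; exact MulAction.mem_orbit_self x⟩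
  · rw [card_map_of_injective A.subtype_injective, osz, ← MulAction.index_stabilizer, mul_comm,
      card_mul_index]

theorem card_of_empty {A : Subgroup (Perm Ω)} (hS : Supp A ∅) : Nat.card A = 1 := by
  rw [card_eq_one, eq_bot_iff]
  intro a ha
  exact Equiv.ext fun x => hS a ha x (by simp)

/-- the largest product of a partition -/
def g : ℕ → ℕ
  | 0 => 1
  | 1 => 1
  | 2 => 2
  | 3 => 3
  | 4 => 4
  | (n + 5) => 3 * g (n + 2)

theorem g_add3 (n : ℕ) (h : n ≠ 1) : g (n + 3) = 3 * g n := by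
  rcases n with _ | _ | n
  · rfl
  · exact absurd rfl h
  · rfl

theorem g_add3_le (n : ℕ) : 3 * g n ≤ g (n + 3) := by
  by_cases h : n = 1
  · subst h; decide
  · rw [g_add3 n h]

theorem g_mul_le : ∀ (n m : ℕ), m * g n ≤ g (n + m) := by
  intro n
  induction n using Nat.strong_induction_on with
  | _ n ih =>
    have small : ∀ n ≤ 4, ∀ m, m * g n ≤ g (n + m) := by
      intro n hn m
      induction m using Nat.strong_induction_on with
      | _ m ihm =>
        rcases m with _ | _ | _ | _ | _ | m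
        · simp
        all_goals try (interval_cases n <;> decide)
        have h1 := ihm (m + 2) (by omega)
        have h2 := g_add3_le (n + (m + 2))
        rw [show n + (m + 1 + 1 + 1 + 1 + 1) = n + (m + 2) + 3 by omega]
        nlinarith
    intro m
    by_cases hn : n ≤ 4
    · exact small n hn m
    · obtain ⟨k, rfl⟩ : ∃ k, n = k + 5 := ⟨n - 5, by omega⟩
      have h1 := ih (k + 2) (by omega) m
      have h2 := g_add3_le (k + 2 + m)
      rw [show k + 5 + m = k + 2 + m + 3 by omega, show g (k + 5) = 3 * g (k + 2) from rfl]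
      nlinarith

theorem card_le_g (n : ℕ) : ∀ (A : Subgroup (Perm Ω)) (S : Finset Ω), Comm A → Supp A S → S.card = n →
    Nat.card A ≤ g n := by
  induction n using Nat.strong_induction_on with
  | _ n ih =>
    intro A S hA hS hn
    rcases S.eq_empty_or_nonempty with rfl | ⟨x, hx⟩
    · rw [card_of_empty hS, ← hn]; rfl
    obtain ⟨B, T, hB, hT, h1, h2, h3⟩ := step hA hS hx
    have := ih T.card (by omega) B T (fun a ha b hb => hA a (hB ha) b (hB hb)) hT rfl
    rw [h3, ← hn, ← h1]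
    exact (Nat.mul_le_mul_left _ this).trans (g_mul_le _ _)

theorem card_sq_le (n : ℕ) : ∀ (A : Subgroup (Perm Ω)) (S : Finset Ω), Comm A → Supp A S → S.card = n →
    (∀ x, osz A x ≤ 2) → Nat.card A ^ 2 ≤ 2 ^ n := by
  induction n using Nat.strong_induction_on with
  | _ n ih =>
    intro A S hA hS hn ho
    rcases S.eq_empty_or_nonempty with rfl | ⟨x, hx⟩
    · rw [card_of_empty hS, ← hn]; simp
    obtain ⟨B, T, hB, hT, h1, h2, h3⟩ := step hA hS hx
    have := ih T.card (by omega) B T (fun a ha b hb => hA a (hB ha) b (hB hb)) hT rfl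
      (fun y => (osz_mono hB y).trans (ho y))
    have h4 := ho x
    rw [h3, ← hn, ← h1, mul_pow, pow_add, mul_comm]
    refine Nat.mul_le_mul this ?_
    interval_cases osz A x <;> simp

theorem g0 (k : ℕ) : g (3 * k) = 3 ^ k := by
  induction k with
  | zero => rfl
  | succ k ih => rw [show 3 * (k + 1) = 3 * k + 3 by ring, g_add3 _ (by omega), ih, pow_succ']

theorem g1 (k : ℕ) : g (3 * k + 4) = 4 * 3 ^ k := by
  induction k with
  | zero => rfl
  | succ k ih => rw [show 3 * (k + 1) + 4 = 3 * k + 4 + 3 by ring, g_add3 _ (by omega), ih, pow_succ']; ring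

theorem g2 (k : ℕ) : g (3 * k + 2) = 2 * 3 ^ k := by
  induction k with
  | zero => rfl
  | succ k ih => rw [show 3 * (k + 1) + 2 = 3 * k + 2 + 3 by ring, g_add3 _ (by omega), ih, pow_succ']; ring

/-- the second largest value for `n = 3k+2` -/
def h : ℕ → ℕ
  | 0 => 1
  | 1 => 5
  | (k + 2) => 16 * 3 ^ k

theorem h_succ (k : ℕ) : 3 * h k ≤ h (k + 1) := by
  rcases k with _ | _ | k
  · decide
  · decide
  · show 3 * (16 * 3 ^ k) ≤ 16 * 3 ^ (k + 1)
    rw [pow_succ]; omega

theorem h_big : ∀ (k n m : ℕ), 4 ≤ m → n + m = 3 * k + 2 → m * g n ≤ h k := by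
  intro k
  induction k with
  | zero => intro n m h1 h2; omega
  | succ k ih =>
    intro n m h1 h2
    have hs := h_succ k
    by_cases hm : 7 ≤ m
    · have := ih n (m - 3) (by omega) (by omega)
      obtain ⟨m, rfl⟩ : ∃ m', m = m' + 3 := ⟨m - 3, by omega⟩
      simp only [Nat.add_sub_cancel] at this
      nlinarith
    by_cases hn : 5 ≤ n
    · obtain ⟨n, rfl⟩ : ∃ n', n = n' + 5 := ⟨n - 5, by omega⟩
      have := ih (n + 2) m h1 (by omega)
      rw [show g (n + 5) = 3 * g (n + 2) from rfl]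
      nlinarith
    have hk : k ≤ 2 := by omega
    interval_cases m <;> interval_cases n <;> interval_cases k <;> first | omega | decide

theorem card_le_h (k : ℕ) : ∀ (A : Subgroup (Perm Ω)) (S : Finset Ω), Comm A → Supp A S → S.card = 3 * k + 2 →
    Nat.card A ≤ h k ∨ ∃ a ∈ A, a.IsSwap := by
  induction k using Nat.strong_induction_on with
  | _ k ih =>
    intro A S hA hS hn
    by_cases ho : ∀ x, osz A x ≤ 2
    · have h1 := card_sq_le _ A S hA hS hn ho
      rcases k with _ | _ | k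
      · by_cases hb : A = ⊥
        · left; rw [hb, card_bot]; rfl
        · right
          obtain ⟨⟨a, ha⟩, ha1⟩ := ne_bot_iff_exists_ne_one.1 hb
          refine ⟨a, ha, Perm.card_support_eq_two.1 (le_antisymm ?_ ?_)⟩
          · refine le_trans (Finset.card_le_card fun x hx => ?_) hn.le
            by_contra h; exact Perm.mem_support.1 hx (hS a ha x h)
          · exact Perm.two_le_card_support_of_ne_one fun e => ha1 (Subtype.ext e)
      · left
        show _ ≤ 5
        by_contra hc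
        have : 6 ^ 2 ≤ Nat.card A ^ 2 := Nat.pow_le_pow_left (by omega) 2
        omega
      · left
        show _ ≤ 16 * 3 ^ k
        refine (Nat.pow_le_pow_iff_left two_ne_zero).1 (h1.trans ?_)
        rw [show 3 * (k + 1 + 1) + 2 = 3 * k + 8 by ring, pow_add, pow_mul, mul_pow, ← pow_mul 3 k 2, mul_comm k 2,
          pow_mul 3 2 k, mul_comm]
        exact Nat.mul_le_mul (by norm_num) (Nat.pow_le_pow_left (by norm_num) k)
    · push Not at ho
      obtain ⟨x, hx⟩ := ho
      have hxS : x ∈ S := by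
        by_contra hn
        have : MulAction.orbit A x = {x} := by
          ext y
          constructor
          · rintro ⟨a, rfl⟩; exact hS a a.2 x hn
          · rintro rfl; exact MulAction.mem_orbit_self _
        rw [osz, this] at hx; simp at hx
      obtain ⟨B, T, hB, hT, h1, h2, h3⟩ := step hA hS hxS
      have hBc : Comm B := fun a ha b hb => hA a (hB ha) b (hB hb)
      by_cases h4 : osz A x = 3
      · obtain ⟨k, rfl⟩ : ∃ k', k = k' + 1 := ⟨k - 1, by omega⟩
        rcases ih k (by omega) B T hBc hT (by omega) with h5 | ⟨a, ha, h5⟩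
        · left; rw [h3, h4]; exact (Nat.mul_le_mul_left 3 h5).trans (h_succ k)
        · exact Or.inr ⟨a, hB ha, h5⟩
      · left
        rw [h3]
        exact (Nat.mul_le_mul_left _ (card_le_g _ B T hBc hT rfl)).trans (h_big k _ _ (by omega) (by omega))

/-- existence of an abelian subgroup -/
def Ex (ev : Prop) (n c : ℕ) : Prop :=
  ∃ A : Subgroup (Perm (Fin n)), Comm A ∧ Nat.card A = c ∧ (ev → ∀ a ∈ A, Perm.sign a = 1)

theorem Ex.add {ev : Prop} {m n c d : ℕ} (h1 : Ex ev m c) (h2 : Ex ev n d) : Ex ev (m + n) (c * d) := by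
  obtain ⟨A, hA, rfl, eA⟩ := h1
  obtain ⟨B, hB, rfl, eB⟩ := h2
  let f : Perm (Fin m) × Perm (Fin n) →* Perm (Fin (m + n)) :=
    (finSumFinEquiv.permCongrHom).toMonoidHom.comp (Perm.sumCongrHom _ _)
  have hf : Function.Injective f := (finSumFinEquiv.permCongrHom).injective.comp Perm.sumCongrHom_injective
  refine ⟨(A.prod B).map f, ?_, ?_, ?_⟩
  · rintro _ ⟨a, ha, rfl⟩ _ ⟨b, hb, rfl⟩
    rw [← map_mul, ← map_mul]
    congr 1
    exact Prod.ext (hA _ ha.1 _ hb.1) (hB _ ha.2 _ hb.2)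
  · rw [card_map_of_injective hf, Nat.card_congr (A.prodEquiv B).toEquiv, Nat.card_prod]
  · rintro e _ ⟨a, ha, rfl⟩
    show Perm.sign (finSumFinEquiv.permCongr (Perm.sumCongr a.1 a.2)) = 1
    rw [Perm.sign_permCongr, Perm.sign_sumCongr, eA e _ ha.1, eB e _ ha.2, one_mul]

theorem ex3 (ev : Prop) : Ex ev 3 3 := by
  refine ⟨alternatingGroup (Fin 3), ?_, ?_, fun _ a ha => ha⟩
  · simp only [Comm, Perm.mem_alternatingGroup]; decide
  · rw [Nat.card_eq_fintype_card]; decide

theorem ex2 : Ex False 2 2 := by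
  refine ⟨⊤, ?_, ?_, False.elim⟩
  · simp only [Comm, mem_top, forall_const]; decide
  · rw [card_top, Nat.card_eq_fintype_card]; decide

def V4 : Subgroup (Perm (Fin 4)) where
  carrier := {a | a * a = 1 ∧ Perm.sign a = 1}
  one_mem' := by simp
  mul_mem' := by simp only [Set.mem_setOf_eq]; decide +kernel
  inv_mem' := by simp only [Set.mem_setOf_eq]; decide +kernel

theorem ex4 (ev : Prop) : Ex ev 4 4 := by
  refine ⟨V4, ?_, ?_, fun _ a ha => ha.2⟩
  · show ∀ a, (a * a = 1 ∧ Perm.sign a = 1) → ∀ b, (b * b = 1 ∧ Perm.sign b = 1) → a * b = b * a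
    decide +kernel
  · show Nat.card {a : Perm (Fin 4) // a * a = 1 ∧ Perm.sign a = 1} = 4
    rw [Nat.card_eq_fintype_card]; decide +kernel

theorem Ex.pow {ev : Prop} {n c : ℕ} (h : Ex ev n c) (k : ℕ) : Ex ev (n + 3 * k) (c * 3 ^ k) := by
  induction k with
  | zero => simpa using h
  | succ k ih => simpa [mul_add, pow_succ, add_assoc, mul_assoc] using ih.add (ex3 ev)

theorem ex0 (ev : Prop) : Ex ev 0 1 := ⟨⊥, by simp [Comm], card_bot, by simp⟩

theorem comm_of {G : Type*} [Group G] {A : Subgroup G} (h : IsMulCommutative A) :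
    ∀ a ∈ A, ∀ b ∈ A, a * b = b * a :=
  fun a ha b hb => congrArg Subtype.val (h.1.1 ⟨a, ha⟩ ⟨b, hb⟩)

theorem greatest_S {n c : ℕ} (h1 : Ex False n c) (h2 : g n = c) :
    IsGreatest {c : ℕ | ∃ A : Subgroup (Perm (Fin n)), IsMulCommutative A ∧ Nat.card A = c} c := by
  obtain ⟨A, hA, hc, -⟩ := h1
  refine ⟨⟨A, ⟨⟨fun a b => Subtype.ext (hA _ a.2 _ b.2)⟩⟩, hc⟩, ?_⟩
  rintro _ ⟨B, hB, rfl⟩
  exact h2 ▸ card_le_g n B Finset.univ (comm_of hB) (fun _ _ x hx => by simp at hx) (by simp)

theorem greatest_A {n c : ℕ} (h1 : Ex True n c)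
    (h2 : ∀ B : Subgroup (Perm (Fin n)), Comm B → (∀ a ∈ B, Perm.sign a = 1) → Nat.card B ≤ c) :
    IsGreatest {c : ℕ | ∃ A : Subgroup (alternatingGroup (Fin n)), IsMulCommutative A ∧ Nat.card A = c} c := by
  obtain ⟨A, hA, hc, he⟩ := h1
  refine ⟨⟨A.subgroupOf _, ⟨⟨fun a b => Subtype.ext (Subtype.ext (hA _ a.2 _ b.2))⟩⟩, ?_⟩, ?_⟩
  · rw [← hc]
    exact Nat.card_congr (subgroupOfEquivOfLe (fun a ha => he trivial a ha)).toEquiv
  · rintro _ ⟨B, hB, rfl⟩
    rw [← card_map_of_injective (K := B) (alternatingGroup (Fin n)).subtype_injective]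
    refine h2 _ ?_ ?_
    · rintro _ ⟨a, ha, rfl⟩ _ ⟨b, hb, rfl⟩
      rw [← map_mul, ← map_mul, comm_of hB a ha b hb]
    · rintro _ ⟨a, -, rfl⟩; exact a.2

theorem le_g {n : ℕ} (B : Subgroup (Perm (Fin n))) (h : Comm B) : Nat.card B ≤ g n :=
  card_le_g n B Finset.univ h (fun _ _ x hx => by simp at hx) (by simp)

end Cfsg.Agent.H9.AbSym
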