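import Cfsg.Agent.L.Frob2
import Cfsg.Agent.H1.Hall
import Cfsg.Agent.H1.Coprime
import Cfsg.Prelude.Def_LieExceptional

/-! CN-groups (Gorenstein, 14.1). -/

set_option autoImplicit false

namespace Cfsg.Agent.H9.CN

open Subgroup Cfsg.Agent.L

universe u

variable {G : Type*} [Group G]

theorem mem_c1 {k g : G} : k ∈ centralizer ({g} : Set G) ↔ k * g = g * k := mem_centralizer_singleton_iff

theorem exists_central [Finite G] {H N : Subgroup G} (hH : Group.IsNilpotent H) (hle : N ≤ H)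
    (hn : H ≤ normalizer (N : Set G)) (hN : N ≠ ⊥) : ∃ z ∈ N, z ≠ 1 ∧ H ≤ centralizer ({z} : Set G) := by
  obtain ⟨⟨z, hz⟩, h1⟩ := ne_bot_iff_exists_ne_one.1 (inf_centralizer_ne_bot_of_isNilpotent hle hn hN)
  exact ⟨z, hz.1, fun h => h1 (Subtype.ext h), fun h hh => mem_c1.2 (hz.2 h hh)⟩

theorem nil (hCN : IsCNGroup G) {x : G} (hx : x ≠ 1) {H : Subgroup G} (h : H ≤ centralizer ({x} : Set G)) :
    Group.IsNilpotent H :=
  haveI := hCN x hx
  isNilpotent_of_le h

theorem ne_bot_of_mem {H : Subgroup G} {x : G} (hx : x ∈ H) (h1 : x ≠ 1) : H ≠ ⊥ := by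
  rintro rfl; exact h1 hx

theorem cop_of_mem [Finite G] {P Q : Subgroup G} (hc : (Nat.card P).Coprime (Nat.card Q)) {a b : G}
    (ha : a ∈ P) (hb : b ∈ Q) : (orderOf a).Coprime (orderOf b) :=
  (hc.coprime_dvd_left (P.orderOf_dvd_natCard ha)).coprime_dvd_right (Q.orderOf_dvd_natCard hb)

theorem comm [Finite G] (hCN : IsCNGroup G) {P Q : Subgroup G} (hP : Group.IsNilpotent P)
    (hQ : Group.IsNilpotent Q) (hc : (Nat.card P).Coprime (Nat.card Q)) {x y : G} (hx : x ∈ P) (hy : y ∈ Q)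
    (hx1 : x ≠ 1) (hy1 : y ≠ 1) (hxy : x * y = y * x) : P ≤ centralizer (Q : Set G) := by
  obtain ⟨z, hz, hz1, hzP⟩ := exists_central hP le_rfl le_normalizer (ne_bot_of_mem hx hx1)
  obtain ⟨w, hw, hw1, hwQ⟩ := exists_central hQ le_rfl le_normalizer (ne_bot_of_mem hy hy1)
  have key : ∀ t : G, t ≠ 1 → ∀ a ∈ P, ∀ b ∈ Q, a * t = t * a → b * t = t * b → a * b = b * a := by
    intro t ht a ha b hb h1 h2
    haveI := hCN t ht
    exact commute_of_isNilpotent_of_coprime (mem_c1.2 h1) (mem_c1.2 h2) (cop_of_mem hc ha hb)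
  have h1 : z * y = y * z := key x hx1 z hz y hy (mem_c1.1 (hzP hx)).symm hxy.symm
  have h2 : z * w = w * z := key y hy1 z hz w hw h1 (mem_c1.1 (hwQ hy)).symm
  intro a ha b hb
  exact (key w hw1 a ha b hb (key z hz1 a ha w hw (mem_c1.1 (hzP ha)) h2.symm) (mem_c1.1 (hwQ hb))).symm

theorem nil_p [Finite G] {p : ℕ} (hp : p.Prime) {P : Subgroup G} (h : IsPGroup p P) : Group.IsNilpotent P :=
  haveI := Fact.mk hp
  h.isNilpotent

theorem cop_pq [Finite G] {p q : ℕ} (hp : p.Prime) (hq : q.Prime) (hne : p ≠ q) {P Q : Subgroup G}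
    (hP : IsPGroup p P) (hQ : IsPGroup q Q) : (Nat.card P).Coprime (Nat.card Q) :=
  haveI := Fact.mk hp
  haveI := Fact.mk hq
  IsPGroup.coprime_card_of_ne p q hne P Q hP hQ

theorem nil_of_comm [Finite G] {H : Subgroup G}
    (h : ∀ p q : ℕ, p.Prime → q.Prime → p ≠ q → ∀ P ≤ H, ∀ Q ≤ H, IsPGroup p P → IsPGroup q Q →
      P ≤ centralizer (Q : Set G)) : Group.IsNilpotent H := by
  refine isNilpotent_of_sylow_normal fun p hp P => ?_
  refine normalizer_eq_top_iff.1 (eq_top_of_forall_sylow_le fun q hq => ?_)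
  by_cases e : q = p
  · subst e; exact ⟨P, le_normalizer⟩
  · haveI := Fact.mk hq
    obtain ⟨Q⟩ : Nonempty (Sylow q H) := inferInstance
    refine ⟨Q, le_trans ?_ (centralizer_le_normalizer _)⟩
    intro a ha b hb
    exact Subtype.ext (h q p hq hp e _ (map_subtype_le _) _ (map_subtype_le _) (Q.isPGroup'.map H.subtype)
      (P.isPGroup'.map H.subtype) ⟨a, ha, rfl⟩ b ⟨b, hb, rfl⟩)

theorem of_equiv {G' : Type*} [Group G'] (e : G ≃* G') (hCN : IsCNGroup G) : IsCNGroup G' := by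
  intro g hg
  haveI := hCN (e.symm g) (by simpa using hg)
  haveI := isNilpotent_map (centralizer ({e.symm g} : Set G)) e.toMonoidHom
  refine isNilpotent_of_le (K := (centralizer ({e.symm g} : Set G)).map e.toMonoidHom) ?_
  intro c hc
  refine ⟨e.symm c, mem_c1.2 ?_, by simp⟩
  rw [← map_mul, ← map_mul, mem_c1.1 hc]

theorem quot_p [Finite G] (hCN : IsCNGroup G) {p : ℕ} (hp : p.Prime) (V : Subgroup G) [V.Normal]
    (hV : IsPGroup p V) : IsCNGroup (G ⧸ V) := by
  haveI := Fact.mk hp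
  intro g hg
  obtain ⟨g, rfl⟩ := QuotientGroup.mk'_surjective V g
  have hgV : ¬ zpowers g ≤ V := fun h => hg ((QuotientGroup.eq_one_iff g).2 (h (mem_zpowers g)))
  have : ∃ r : ℕ, r.Prime ∧ ∃ x ∈ zpowers g, IsPGroup r (zpowers x) ∧ x ∉ V := by
    by_contra hno
    push Not at hno
    exact hgV (le_of_forall_isPGroup_le fun r hr R hR hRr x hx =>
      hno r hr x (hR hx) (hRr.to_le (zpowers_le.2 hx)))
  obtain ⟨r, hr, x, hxg, hxr, hxV⟩ := this
  have hx1 : x ≠ 1 := by rintro rfl; exact hxV (one_mem _)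
  set π := QuotientGroup.mk' V with hπ
  have hπx : π x ≠ 1 := fun h => hxV ((QuotientGroup.eq_one_iff x).1 h)
  have hle : centralizer ({π g} : Set (G ⧸ V)) ≤ centralizer ({π x} : Set (G ⧸ V)) := by
    intro c hc
    obtain ⟨k, rfl⟩ := hxg
    rw [mem_c1] at hc ⊢
    simp only [map_zpow]
    exact ((show Commute c (π g) from hc).zpow_right k).eq
  suffices h : Group.IsNilpotent (centralizer ({π x} : Set (G ⧸ V))) from isNilpotent_of_le hle
  by_cases hrp : r = p
  · subst hrp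
    set C := (centralizer ({π x} : Set (G ⧸ V))).comap π with hC
    suffices h : Group.IsNilpotent C by
      have := isNilpotent_map C π
      rwa [hC, map_comap_eq_self_of_surjective (QuotientGroup.mk'_surjective V)] at this
    set X := (zpowers (π x)).comap π with hX
    have hxX : x ∈ X := mem_zpowers _
    have hXp : IsPGroup r X := by
      refine IsPGroup.comap_of_ker_isPGroup ?_ π (by rwa [hπ, QuotientGroup.ker_mk'])
      rw [← MonoidHom.map_zpowers]; exact hxr.map π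
    have hCX : C ≤ normalizer (X : Set G) := by
      rw [le_normalizer_iff_conj]
      intro c hc y hy
      obtain ⟨k, hk⟩ := hy
      refine ⟨k, ?_⟩
      have h1 : Commute (π c) (π x) := mem_c1.1 hc
      simp only [map_mul, map_inv] at hk ⊢
      rw [← hk, (h1.zpow_right k).eq]; simp
    have F1 : ∀ q : ℕ, q.Prime → q ≠ r → ∀ Q ≤ C, IsPGroup q Q → ∀ P ≤ C, IsPGroup r P →
        P ⊔ X ≤ centralizer (Q : Set G) := by
      intro q hq hqr Q hQ hQq P hP hPr
      by_cases hQ1 : Q = ⊥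
      · subst hQ1; intro a _ b hb; rw [show b = 1 from hb]; simp
      obtain ⟨⟨y, hy⟩, hy1⟩ := ne_bot_iff_exists_ne_one.1 hQ1
      have hPX : IsPGroup r ↥(P ⊔ X) := IsPGroup.to_sup_of_normal_right' hPr hXp (hP.trans hCX)
      have h1 := H1.map_inf_centralizer' π (hQ.trans hCX) (cop_pq hq hr hqr hQq hXp)
        (Or.inr (haveI := nil_p hr hXp; inferInstance))
      have h2 : π x ∈ X.map π ⊓ centralizer ((Q.map π : Subgroup (G ⧸ V)) : Set (G ⧸ V)) := by
        refine ⟨⟨x, hxX, rfl⟩, ?_⟩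
        rintro _ ⟨c, hc, rfl⟩
        exact mem_c1.1 (hQ hc)
      rw [← h1] at h2
      obtain ⟨u, hu, hux⟩ := h2
      have hu1 : u ≠ 1 := by rintro rfl; exact hπx (by simpa using hux.symm)
      exact comm hCN (nil_p hr hPX) (nil_p hq hQq) (cop_pq hr hq hqr.symm hPX hQq) (mem_sup_right hu.1) hy
        hu1 (fun h => hy1 (Subtype.ext h)) (hu.2 y hy).symm
    refine nil_of_comm fun s q hs hq hsq S hS Q hQ hSs hQq => ?_
    by_cases h1 : s = r
    · subst h1; exact le_sup_left.trans (F1 q hq hsq.symm Q hQ hQq S hS hSs)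
    by_cases h2 : q = r
    · subst h2; exact le_centralizer_iff.1 (le_sup_left.trans (F1 s hs hsq S hS hSs Q hQ hQq))
    have k : ∀ q : ℕ, q.Prime → q ≠ r → ∀ Q ≤ C, IsPGroup q Q → Q ≤ centralizer ({x} : Set G) :=
      fun q hq hqr Q hQ hQq a ha =>
        mem_c1.2 (F1 q hq hqr Q hQ hQq ⊥ bot_le IsPGroup.of_bot (mem_sup_right hxX) a ha)
    haveI := hCN x hx1
    exact le_centralizer_of_isNilpotent_of_coprime (k s hs h1 S hS hSs) (k q hq h2 Q hQ hQq)
      (cop_pq hs hq hsq hSs hQq)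
  · have h1 := H1.map_mk'_centralizer (A := zpowers x) (N := V) (cop_pq hr hp hrp hxr hV)
      (Or.inl (H1.isSolvable_zpowers x))
    haveI : Group.IsNilpotent (centralizer (zpowers x : Set G)) :=
      nil hCN hx1 (centralizer_le (by simp))
    haveI := isNilpotent_map (centralizer (zpowers x : Set G)) π
    refine isNilpotent_of_le (K := (centralizer (zpowers x : Set G)).map π) ?_
    rw [h1, MonoidHom.map_zpowers]
    rintro c hc _ ⟨k, rfl⟩
    exact ((show Commute c (π x) from mem_c1.1 hc).zpow_right k).eq.symm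

theorem quot_aux (n : ℕ) : ∀ (G : Type u) [Group G] [Finite G], IsCNGroup G → ∀ (H : Subgroup G) [H.Normal],
    Group.IsSolvable H → Nat.card H = n → IsCNGroup (G ⧸ H) := by
  induction n using Nat.strong_induction_on with
  | _ n ih =>
    intro G _ _ hCN H _ hH hn
    by_cases h1 : H = ⊥
    · exact quot_p hCN Nat.prime_two H (h1 ▸ IsPGroup.of_bot)
    obtain ⟨M, p, hMH, hMn, hM1, hp, -, -, hMp, -⟩ := exists_elementary_normal_le H h1
    have h2 := quot_p hCN hp M hMp
    refine of_equiv (QuotientGroup.quotientQuotientEquivQuotient M H hMH)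
      (ih _ ?_ (G ⧸ M) h2 (H.map (QuotientGroup.mk' M)) (isSolvable_map _ _) rfl)
    have e := card_comap_mk' M (H.map (QuotientGroup.mk' M))
    rw [comap_map_eq, QuotientGroup.ker_mk', sup_eq_left.2 hMH, hn] at e
    have h3 : 1 < Nat.card M := (one_lt_card_iff_ne_bot M).2 hM1
    have h4 : 0 < Nat.card (H.map (QuotientGroup.mk' M)) := Nat.card_pos
    nlinarith

theorem quot [Finite G] (hCN : IsCNGroup G) (H : Subgroup G) [H.Normal] (hH : Group.IsSolvable H) :
    IsCNGroup (G ⧸ H) := quot_aux _ G hCN H hH rfl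

theorem sylow_normal_of_le [Finite G] {p : ℕ} (hp : p.Prime) (P : Sylow p G) {N : Subgroup G} [N.Normal]
    (hN : Group.IsNilpotent N) (h : (P : Subgroup G) ≤ N) : (P : Subgroup G).Normal := by
  have h1 : (P : Subgroup G).subgroupOf N ≤ pCore p N :=
    le_pCore_of_isNilpotent hp (P.isPGroup'.comap_of_injective N.subtype N.subtype_injective)
  have h2 : (P : Subgroup G) ≤ pCore p G := by
    refine le_trans ?_ (pCoreMap_le_pCore N)
    intro x hx
    exact ⟨⟨x, h hx⟩, h1 hx, rfl⟩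
  rw [← le_antisymm (pCore_le_sylow P) h2]
  infer_instance

theorem fh_nil [Finite G] : Group.IsNilpotent (fittingHall G) :=
  isNilpotent_of_le (K := fittingSubgroup G) (sSup_le fun N hN => haveI := hN.1; le_fitting hN.2.1)

theorem fh_coprime [Finite G] : (Nat.card (fittingHall G)).Coprime (fittingHall G).index := by
  refine Nat.coprime_of_dvd fun p hp h1 h2 => ?_
  have : fittingHall G ≤ pPrimeCore p G := by
    refine sSup_le fun N hN => ?_
    haveI := hN.1
    exact le_pPrimeCore (hN.2.2.coprime_dvd_right (h2.trans (index_dvd_of_le (le_sSup hN))))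
  exact not_dvd_card_pPrimeCore hp (h1.trans (card_dvd_of_le this))

theorem sylow_le_fh [Finite G] {p : ℕ} (hp : p.Prime) (P : Sylow p G) (h : (P : Subgroup G).Normal) :
    (P : Subgroup G) ≤ fittingHall G :=
  haveI := Fact.mk hp
  le_sSup ⟨h, nil_p hp P.isPGroup', P.card_coprime_index⟩

theorem exists_pow_prime [Finite G] {x : G} (hx : x ≠ 1) :
    ∃ r : ℕ, r.Prime ∧ ∃ y ∈ zpowers x, orderOf y = r := by
  obtain ⟨r, hr, hd⟩ := Nat.exists_prime_and_dvd (n := orderOf x) (by simpa using hx)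
  exact ⟨r, hr, x ^ (orderOf x / r), ⟨(orderOf x / r : ℕ), zpow_natCast _ _⟩,
    orderOf_pow_orderOf_div (orderOf_pos x).ne' hd⟩

theorem isPGroup_zpowers_of_orderOf {r : ℕ} {y : G} (h : orderOf y = r) : IsPGroup r (zpowers y) :=
  IsPGroup.of_card (n := 1) (by rw [Nat.card_zpowers, h, pow_one])

theorem frob [Finite G] (hCN : IsCNGroup G) (hnn : ¬ Group.IsNilpotent G) {p : ℕ} (hp : p.Prime)
    (P : Sylow p G) (hP1 : (P : Subgroup G) ≠ ⊥) (hPn : (P : Subgroup G).Normal) :
    fittingHall G ≠ ⊥ ∧ fittingHall G ≠ ⊤ ∧ ∃ E : Subgroup G, IsComplement' (fittingHall G) E ∧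
      IsFrobeniusComplement E ∧ FPF (fittingHall G) E ∧ Group.IsNilpotent E := by
  set H := fittingHall G with hH
  have hn : Group.IsNilpotent H := fh_nil
  have h1 : H ≠ ⊥ := fun h => hP1 (eq_bot_iff.2 (h ▸ sylow_le_fh hp P hPn))
  have h2 : H ≠ ⊤ := fun h => hnn (by
    rw [h] at hn; exact Group.nilpotent_of_mulEquiv topEquiv)
  obtain ⟨E, hE⟩ := exists_right_complement'_of_coprime (N := H) fh_coprime
  have hE1 : E ≠ ⊥ := by rintro rfl; exact h2 (isComplement'_bot_right.1 hE)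
  have hf : FPF H E := by
    refine FPF.of_forall fun x hx hx1 k hk hxk => ?_
    by_contra hk1
    obtain ⟨r, hr, y, hy, hyr⟩ := exists_pow_prime hx1
    haveI := Fact.mk hr
    obtain ⟨R, hR⟩ := (isPGroup_zpowers_of_orderOf hyr).exists_le_sylow
    have hy1 : y ≠ 1 := by rintro rfl; exact hr.one_lt.ne (by simpa using hyr)
    have hrH : ¬ r ∣ Nat.card H := by
      intro hd
      have : r ∣ H.index := by
        rw [hE.symm.index_eq_card, ← hyr]; exact E.orderOf_dvd_natCard (zpowers_le.2 hx hy)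
      exact hr.one_lt.ne' (Nat.eq_one_of_dvd_coprimes fh_coprime hd this)
    have hyk : y * k = k * y := by
      obtain ⟨m, rfl⟩ := hy
      exact ((show Commute x k from hxk).zpow_left m).eq
    have h3 := comm hCN (nil_p hr R.isPGroup') hn
      (coprime_card_of_isPGroup hr R.isPGroup' ((Nat.Prime.coprime_iff_not_dvd hr).2 hrH).symm)
      (hR (mem_zpowers y)) hk hy1 hk1 hyk
    have h4 : Group.IsNilpotent (centralizer (H : Set G)) :=
      nil hCN hk1 (centralizer_le (by simpa using hk))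
    have h5 := sylow_le_fh hr R (sylow_normal_of_le hr R h4 h3)
    exact hrH (hyr ▸ H.orderOf_dvd_natCard (h5 (hR (mem_zpowers y))))
  refine ⟨h1, h2, E, hE, frobenius_of_fpf hE.sup_eq_top h1 hE1 hf, hf, ?_⟩
  obtain ⟨⟨z, hz⟩, hz1⟩ := ne_bot_iff_exists_ne_one.1
    (hf.inf_centralizer_self_ne_bot le_normalizer_of_normal h1 hE1)
  exact nil hCN (x := z) (fun h => hz1 (Subtype.ext h)) fun a ha => mem_c1.2 (hz.2 a ha)

theorem frob_nil_struct [Finite G] {K E : Subgroup G} (hf : FPF K E) (hn : E ≤ normalizer (K : Set G))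
    (hK : K ≠ ⊥) (hE : Group.IsNilpotent E) :
    IsCyclic E ∨ ∃ C Q : Subgroup G, C ⊔ Q = E ∧ (∀ a ∈ C, ∀ b ∈ Q, a * b = b * a) ∧ IsCyclic C ∧
      Odd (Nat.card C) ∧ ∃ n : ℕ, Nonempty (Q ≃* QuaternionGroup (2 ^ n)) := by
  haveI := Fact.mk Nat.prime_two
  set C := (pPrimeCore 2 E).map E.subtype with hC
  set Q := (pCore 2 E).map E.subtype with hQ
  have hCE : C ≤ E := map_subtype_le _
  have hQE : Q ≤ E := map_subtype_le _
  have hCo : Odd (Nat.card C) := Nat.coprime_two_right.1 (pPrimeCoreMap_coprime 2 E)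
  have hCc : IsCyclic C := by
    haveI := (hf.mono le_rfl hCE).isZGroup_of_odd (hCE.trans hn) hK hCo
    haveI : Group.IsNilpotent C := isNilpotent_of_le hCE
    infer_instance
  rcases (hf.mono le_rfl hQE).isCyclic_or_quaternion (hQE.trans hn) hK (pCoreMap_isPGroup 2 E) with
    h | ⟨-, n, -, h⟩
  · left
    haveI : IsZGroup E := ⟨fun p hp P => by
      haveI := Fact.mk hp
      apply isCyclic_of_map_subtype
      by_cases e : p = 2
      · subst e
        exact isCyclic_of_le (map_mono (le_pCore_of_isNilpotent hp P.isPGroup') : _ ≤ Q)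
      · exact (hf.mono le_rfl (map_subtype_le _)).isCyclic_of_odd ((map_subtype_le _).trans hn) hK e
          (P.isPGroup'.map _)⟩
    infer_instance
  · right
    refine ⟨C, Q, ?_, ?_, hCc, hCo, n, h⟩
    · rw [hC, hQ, ← Subgroup.map_sup, sup_comm, pCore_sup_pPrimeCore Nat.prime_two, ← MonoidHom.range_eq_map,
        range_subtype]
    · rintro _ ⟨a, ha, rfl⟩ _ ⟨b, hb, rfl⟩
      exact congrArg Subtype.val (pCore_le_centralizer_pPrimeCore Nat.prime_two hb a ha)

end Cfsg.Agent.H9.CN
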