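import Mathlib
import Cfsg.Agent.H2.ES
import Cfsg.Agent.H2.Syl
import Cfsg.Agent.H4.Dick6

/-! Groups with an extraspecial Sylow subgroup of order `p ^ 3` and exponent `p`. -/

namespace Cfsg.Agent.H9

open Subgroup Cfsg.Agent.H2 Cfsg.Agent.H4 OnePoint
open scoped MatrixGroups commutatorElement

section pgl
variable {F : Type*} [Field F]

theorem pgl_three_pts {p : ℕ} [Fact p.Prime] [CharP F p] {H : Subgroup PGL(2, F)} [Finite H]
    (hp : ¬ p ∣ Nat.card H) (x : Fin 3 → OnePoint F) (hx : Function.Injective x)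
    (h : ∀ i, ∃ g ∈ H, g • x i = x i ∧ 2 < orderOf g) :
    Nonempty (H ≃* alternatingGroup (Fin 4)) ∨ Nonempty (H ≃* Equiv.Perm (Fin 4)) ∨
      Nonempty (H ≃* alternatingGroup (Fin 5)) := by
  have D := dact F p
  have hU : ∀ z, D.Up H z = ⊥ := fun z =>
    (D.isPGroup_Up H z).card_eq_or_dvd.elim card_eq_one.mp fun h =>
      absurd (h.trans (card_dvd_of_le (D.Up_le H z))) hp
  choose g hg hgx hgo using h
  have hg1 : ∀ i, g i ≠ 1 := fun i e => by have := hgo i; rw [e, orderOf_one] at this; omega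
  have hy : ∀ i, g i • pt (x i) = pt (x i) := fun i => smul_pt_eq.mpr (hgx i)
  have hne : ∀ i j, i ≠ j → (pt (x i) : Pt F) ≠ pt (x j) := fun i j h e => h (hx (pt_injective e))
  refine D.pprime_case hp ⟨?_, ?_⟩
  · rintro ⟨z, hz⟩
    have key : ∀ i, g 0 • pt (x i) = pt (x i) := fun i =>
      D.St_fix_of_Up_bot (hU z) (mem_St.mpr ⟨hg i, hz _ (hg i)⟩) (hg1 i) (hy i)
        (mem_St.mpr ⟨hg 0, hz _ (hg 0)⟩)
    exact hg1 0 (D.three (hne 0 1 (by decide)) (hne 0 2 (by decide)) (hne 1 2 (by decide))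
      (key 0) (key 1) (key 2))
  · rintro ⟨a, b, hab, hH, -⟩
    have key : ∀ i, pt (x i) = a ∨ pt (x i) = b := fun i => by
      rcases mem_PS.mp (hH (hg i)) with h | h
      · exact D.fix_or (hg1 i) hab h.1 h.2 (hy i)
      · have := orderOf_le_of_pow_eq_one (by norm_num) (D.swap_sq hab h.1 h.2)
        have := hgo i
        omega
    have h01 := hne 0 1 (by decide)
    have h02 := hne 0 2 (by decide)
    have h12 := hne 1 2 (by decide)
    rcases key 0 with a0 | a0 <;> rcases key 1 with a1 | a1 <;> rcases key 2 with a2 | a2 <;>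
      simp_all

open Classical in
/-- the point of the projective line spanned by a vector -/
noncomputable def lnPt (v : Fin 2 → F) : OnePoint F := if v 1 = 0 then ∞ else ((v 0 / v 1 : F) : OnePoint F)

theorem lnPt_eq {u v : Fin 2 → F} (hu : u ≠ 0) (h : lnPt u = lnPt v) : ∃ t : F, v = t • u := by
  unfold lnPt at h
  by_cases h1 : u 1 = 0 <;> by_cases h2 : v 1 = 0 <;> simp only [h1, h2, if_true, if_false] at h
  · have h0 : u 0 ≠ 0 := fun e => hu (by ext i; fin_cases i <;> simp [e, h1])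
    exact ⟨v 0 / u 0, by ext i; fin_cases i <;> simp [h0, h1, h2]⟩
  · exact absurd h (by simp)
  · exact absurd h (by simp)
  · have h3 : u 0 / u 1 = v 0 / v 1 := by simpa using h
    refine ⟨v 1 / u 1, ?_⟩
    ext i; fin_cases i
    · simp only [Fin.zero_eta, Pi.smul_apply, smul_eq_mul]
      field_simp at h3 ⊢
      linear_combination -h3
    · simp [h1]

theorem lnPt_surj (x : OnePoint F) : ∃ v : Fin 2 → F, v ≠ 0 ∧ lnPt v = x := by
  induction x using OnePoint.rec with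
  | infty => exact ⟨![1, 0], by simp, by simp [lnPt]⟩
  | coe t => exact ⟨![t, 1], by simp, by simp [lnPt]⟩

open Classical in
theorem smul_lnPt (M : GL (Fin 2) F) {v : Fin 2 → F} (hv : v ≠ 0) {μ : F}
    (h : (M : Matrix (Fin 2) (Fin 2) F).mulVec v = μ • v) :
    Matrix.ProjGenLinGroup.mk M • lnPt v = lnPt v := by
  have h0 := congrFun h 0
  have h1 := congrFun h 1
  simp only [Matrix.mulVec, dotProduct, Fin.sum_univ_two, Pi.smul_apply, smul_eq_mul] at h0 h1
  rw [mk_eq_pm]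
  unfold lnPt
  split_ifs with e
  · rw [pm_ii]
    have h2 : v 0 ≠ 0 := fun e' => hv (by ext i; fin_cases i <;> simp [e, e'])
    rw [e] at h1
    simpa [h2] using h1
  · rw [pm_cc]
    field_simp
    linear_combination v 1 * h0 - v 0 * h1

theorem mulVec_of_mk_eq_one {M : GL (Fin 2) F} (h : Matrix.ProjGenLinGroup.mk M = 1) :
    ∃ μ : F, ∀ v, (M : Matrix (Fin 2) (Fin 2) F).mulVec v = μ • v := by
  rw [mk_eq_pm, pm_eq_one] at h
  refine ⟨M 0 0, fun v => ?_⟩
  ext i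
  fin_cases i <;> simp [Matrix.mulVec, dotProduct, Fin.sum_univ_two, h.1, h.2.1, h.2.2]

/-- matrices of linear automorphisms -/
noncomputable def toGL2 {V : Type*} [AddCommGroup V] [Module F V] (b : Module.Basis (Fin 2) F V) :
    (V ≃ₗ[F] V) →* GL (Fin 2) F :=
  (Units.map (LinearMap.toMatrixAlgEquiv b).toMonoidHom).comp
    (LinearMap.GeneralLinearGroup.generalLinearEquiv F V).symm.toMonoidHom

theorem toGL2_mulVec {V : Type*} [AddCommGroup V] [Module F V] (b : Module.Basis (Fin 2) F V)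
    (L : V ≃ₗ[F] V) (v : V) :
    (toGL2 b L : Matrix (Fin 2) (Fin 2) F).mulVec (b.repr v) = b.repr (L v) :=
  LinearMap.toMatrix_mulVec_repr b b (L : V →ₗ[F] V) v

end pgl

section tri
variable {G : Type*} [Group G] {p : ℕ} [hp : Fact p.Prime] {z a : G}

theorem pw_add {x : G} (hx : x ^ p = 1) (i j : ZMod p) : x ^ (i + j).val = x ^ i.val * x ^ j.val := by
  rw [← pow_add, ZMod.val_add, ← pow_eq_pow_mod _ hx]

theorem pw_mul {x : G} (hx : x ^ p = 1) (i j : ZMod p) : x ^ (i * j).val = (x ^ i.val) ^ j.val := by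
  rw [← pow_mul, ZMod.val_mul, ← pow_eq_pow_mod _ hx]

/-- two commuting elements of order dividing `p` -/
structure EE (p : ℕ) (z a : G) : Prop where
  hz : z ^ p = 1
  ha : a ^ p = 1
  cm : Commute z a

/-- `z ^ i * a ^ j` -/
def ee (z a : G) (i j : ZMod p) : G := z ^ i.val * a ^ j.val

theorem ee_one_zero : ee z a (1 : ZMod p) 0 = z := by simp [ee, ZMod.val_one]
theorem ee_zero_one : ee z a (0 : ZMod p) 1 = a := by simp [ee, ZMod.val_one]

theorem EE.mul (h : EE p z a) (i j k l : ZMod p) :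
    ee z a i j * ee z a k l = ee z a (i + k) (j + l) := by
  rw [ee, ee, ee, pw_add h.hz, pw_add h.ha, mul_assoc, mul_assoc, ← mul_assoc (a ^ _),
    ← (h.cm.pow_pow _ _).eq, mul_assoc]

theorem EE.pow (h : EE p z a) (i j k : ZMod p) :
    ee z a i j ^ k.val = ee z a (i * k) (j * k) := by
  rw [ee, ee, pw_mul h.hz, pw_mul h.ha, (h.cm.pow_pow _ _).mul_pow]

/-- the action of `u` on `⟨z, a⟩` -/
def Act (z a u : G) (i j k l : ZMod p) : Prop :=
  u * z * u⁻¹ = ee z a i j ∧ u * a * u⁻¹ = ee z a k l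

theorem Act.conj (h : EE p z a) {u : G} {i j k l : ZMod p} (hu : Act z a u i j k l) (s t : ZMod p) :
    u * ee z a s t * u⁻¹ = ee z a (i * s + k * t) (j * s + l * t) := by
  rw [← h.mul, ← h.pow, ← h.pow, ← hu.1, ← hu.2, conj_pow, conj_pow, conj_mul, ee]

theorem Act.mul (h : EE p z a) {u v : G} {i j k l i' j' k' l' : ZMod p} (hu : Act z a u i j k l)
    (hv : Act z a v i' j' k' l') :
    Act z a (u * v) (i * i' + k * j') (j * i' + l * j') (i * k' + k * l') (j * k' + l * l') := by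
  constructor
  · rw [← hu.conj h, ← hv.1]; group
  · rw [← hu.conj h, ← hv.2]; group

theorem Act.congr {u : G} {i j k l i' j' k' l' : ZMod p} (hu : Act z a u i j k l) (h1 : i = i')
    (h2 : j = j') (h3 : k = k') (h4 : l = l') : Act z a u i' j' k' l' := by
  subst h1 h2 h3 h4; exact hu

theorem Act.inv (h : EE p z a) {u : G} {i k l : ZMod p} (hu : Act z a u i 0 k l) (hi : i ≠ 0)
    (hl : l ≠ 0) : Act z a u⁻¹ i⁻¹ 0 (-k * i⁻¹ * l⁻¹) l⁻¹ := by
  have h1 := hu.conj h i⁻¹ 0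
  have h2 := hu.conj h (-k * i⁻¹ * l⁻¹) l⁻¹
  rw [show i * i⁻¹ + k * 0 = 1 by field_simp; ring, show 0 * i⁻¹ + l * 0 = 0 by ring,
    ee_one_zero] at h1
  rw [show i * (-k * i⁻¹ * l⁻¹) + k * l⁻¹ = 0 by field_simp; ring,
    show 0 * (-k * i⁻¹ * l⁻¹) + l * l⁻¹ = 1 by field_simp; ring, ee_zero_one] at h2
  constructor
  · conv_lhs => rw [← h1]
    group
  · conv_lhs => rw [← h2]
    group

/-- the elements acting trivially on `⟨z⟩` and on `⟨z, a⟩ / ⟨z⟩` -/
def triD (h : EE p z a) : Subgroup G where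
  carrier := {u | ∃ s : ZMod p, Act z a u 1 0 s 1}
  one_mem' := ⟨0, by simp [ee_one_zero], by simp [ee_zero_one]⟩
  mul_mem' := by
    rintro u v ⟨s, hu⟩ ⟨t, hv⟩
    exact ⟨_, (hu.mul h hv).congr (by ring) (by ring) rfl (by ring)⟩
  inv_mem' := by
    rintro u ⟨s, hu⟩
    exact ⟨_, (hu.inv h one_ne_zero one_ne_zero).congr inv_one rfl rfl inv_one⟩

theorem exists_diag [Finite G] (h : EE p z a) {P : Subgroup G} (hP : SylIn p P ⊤)
    (h1 : P ≤ triD h) (h2 : ∀ s : ZMod p, ∃ u, Act z a u 1 0 s 1)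
    (h3 : ∀ s : ZMod p, ∃ u, Act z a u 1 s 0 1) {c : ZMod p} (hc : c ≠ 0) :
    ∃ n ∈ normalizer (P : Set G), ∃ s, Act z a n c 0 s c⁻¹ := by
  obtain ⟨u, hu⟩ := h3 (-c⁻¹)
  obtain ⟨v, hv⟩ := h2 (c - 1)
  obtain ⟨w, hw⟩ := h3 1
  have k : Act z a (u * (v * w)) c 0 (c - 1) c⁻¹ := (hu.mul h (hv.mul h hw)).congr (by ring)
    (by field_simp; ring) (by ring) (by field_simp; ring)
  have hn : u * (v * w) ∈ normalizer (triD h : Set G) := by
    apply mem_normalizer_of_cj_le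
    rintro _ ⟨d, ⟨s, hd⟩, rfl⟩
    exact ⟨_, ((k.mul h hd).mul h (k.inv h hc (inv_ne_zero hc))).congr (by field_simp; ring)
      (by ring) rfl (by field_simp; ring)⟩
  obtain ⟨d, hd, hdn⟩ := (hP.mono h1 le_top).frattini hn
  obtain ⟨s, hs⟩ := inv_mem hd
  exact ⟨_, hdn, _, (hs.mul h k).congr (by ring) (by ring) rfl (by ring)⟩

end tri

section core
variable {G : Type*} [Group G] [Finite G] {p : ℕ} [hp : Fact p.Prime] {P : Subgroup G}
  {V : Type*} [AddCommGroup V] [Module (ZMod p) V]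

omit [Finite G] in
theorem exists_B_eq (c : CExt p P V) (hc : c.sp.Nondeg) {a : P} (ha : c.π a ≠ 0) (s : ZMod p) :
    ∃ y : P, y * a * y⁻¹ = a * c.ζ s := by
  have : ∃ y : P, c.B (c.π y) (c.π a) ≠ 0 := by
    by_contra h
    push Not at h
    apply ha
    rw [c.ker, ← c.nondeg_iff.1 hc, mem_center_iff]
    exact fun y => (c.B_eq_zero.1 (h y)).eq
  obtain ⟨y, hy⟩ := this
  obtain ⟨x, hx⟩ := c.surj ((s / c.B (c.π y) (c.π a)) • c.π y)
  exact ⟨x, by rw [c.conj_eq, hx, c.B_smul_left, div_mul_cancel₀ _ hy]⟩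

theorem heis_core (hP : SylIn p P ⊤) (c : CExt p P V) (hc : c.sp.Nondeg)
    (hcard : Nat.card P = p ^ 3) (he : ∀ x : P, x ^ p = 1) :
    ∃ (H : Subgroup PGL(2, ZMod p)) (pt : P → OnePoint (ZMod p)), ¬ p ∣ Nat.card H ∧
      (∀ a a', c.π a ≠ 0 → pt a = pt a' → ∃ t : ZMod p, c.π a' = t • c.π a) ∧
      (∀ x, ∃ a, c.π a ≠ 0 ∧ pt a = x) ∧
      ∀ a : P, c.π a ≠ 0 → ∀ g : G, g * a * g⁻¹ = c.z → g * c.z * g⁻¹ ∈ P →
        ∃ h ∈ H, h • pt a = pt a ∧ p - 1 ∣ 3 * orderOf h := by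
  haveI := c.finite
  have hV : Module.finrank (ZMod p) V = 2 := by
    have h1 := c.card_eq
    rw [hcard, Module.natCard_eq_pow_finrank (K := ZMod p), Nat.card_zmod, ← pow_succ'] at h1
    have := Nat.pow_right_injective hp.out.two_le h1
    omega
  let b := Module.finBasisOfFinrankEq (ZMod p) V hV
  let τ := (c.θ hc).comp P.normalizerMonoidHom
  let ρ := (Matrix.ProjGenLinGroup.mk.comp (toGL2 b)).comp τ
  have hτ : ∀ (n : normalizer (P : Set G)) (x y : P), (n : G) * x * (n : G)⁻¹ = y →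
      τ n (c.π x) = c.π y := fun n x y h => by
    change c.θ hc _ _ = _
    rw [c.θ_π]
    congr 1
    exact Subtype.ext h
  have hr : ∀ a : P, c.π a ≠ 0 → (b.repr (c.π a) : Fin 2 → ZMod p) ≠ 0 := fun a h e =>
    h (b.repr.injective (by rw [map_zero]; exact DFunLike.coe_injective e))
  refine ⟨ρ.range, fun a => lnPt (b.repr (c.π a)), ?_, fun a a' h e => ?_, fun x => ?_,
    fun a ha g h1 h2 => ?_⟩
  · rw [← index_ker]
    have : P.subgroupOf (normalizer (P : Set G)) ≤ ρ.ker := by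
      intro n hn
      have : τ n = 1 := by
        ext v
        obtain ⟨x, rfl⟩ := c.surj v
        rw [hτ n x (⟨n, hn⟩ * x * ⟨n, hn⟩⁻¹) rfl, c.π_conj]; rfl
      change Matrix.ProjGenLinGroup.mk (toGL2 b (τ n)) = 1
      rw [this, map_one, map_one]
    exact fun h => (hP.mono le_normalizer le_top).not_dvd_relIndex (h.trans (index_dvd_of_le this))
  · obtain ⟨t, ht⟩ := lnPt_eq (hr a h) e
    exact ⟨t, b.repr.injective (by rw [_root_.map_smul]; exact DFunLike.coe_injective ht)⟩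
  · obtain ⟨v, h1, h2⟩ := lnPt_surj x
    obtain ⟨a, ha⟩ := c.surj (b.equivFun.symm v)
    have : (b.repr (c.π a) : Fin 2 → ZMod p) = v := by
      rw [ha]; exact b.equivFun.apply_symm_apply v
    refine ⟨a, fun e => h1 ?_, by simp only [this, h2]⟩
    rw [← this, e]; simp
  have E : EE p (c.z : G) (a : G) := ⟨congrArg Subtype.val (he _), congrArg Subtype.val (he _),
    congrArg Subtype.val (c.central a).eq⟩
  have hee : ∀ i j : ZMod p, ee (c.z : G) (a : G) i j = ((c.ζ i * a ^ j.val : P) : G) :=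
    fun _ _ => rfl
  have hz : ∀ y : P, (y : G) * c.z * (y : G)⁻¹ = c.z := fun y => by
    rw [mul_inv_eq_iff_eq_mul]; exact congrArg Subtype.val (c.central y).symm.eq
  have hact : ∀ (y : P) (s : ZMod p), y * a * y⁻¹ = a * c.ζ s → Act (c.z : G) a y 1 0 s 1 :=
    fun y s h => ⟨by rw [ee_one_zero, hz], by
      rw [hee, ZMod.val_one, pow_one, (c.ζ_commute s a).eq, ← h]; rfl⟩
  obtain ⟨l, hl⟩ := IsCyclic.exists_ofOrder_eq_natCard (α := (ZMod p)ˣ)
  rw [Nat.card_eq_fintype_card, ZMod.card_units] at hl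
  obtain ⟨n, hn, s, hs⟩ := exists_diag E hP (fun y hy => ⟨_, hact ⟨y, hy⟩ _ (c.conj_eq _ _)⟩)
    (fun s => let ⟨y, hy⟩ := exists_B_eq c hc ha s; ⟨y, hact y s hy⟩) (fun s => by
      have hb : c.π ⟨_, h2⟩ ≠ 0 := by
        intro e
        obtain ⟨i, hi⟩ := c.exists_ζ e
        have h3 : (c.z : G) ^ i.val = g * c.z * g⁻¹ := congrArg Subtype.val hi
        rw [← h1, conj_pow, mul_left_inj, mul_right_inj, h1] at h3
        have h4 : a ^ i.val = c.z := Subtype.ext h3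
        have h5 := congrArg c.π h4
        rw [c.π_pow, c.π_z, ← Nat.cast_smul_eq_nsmul (ZMod p), ZMod.natCast_zmod_val] at h5
        rcases smul_eq_zero.mp h5 with h6 | h6
        · rw [h6] at h4
          exact c.z_ne_one (by simpa using h4.symm)
        · exact ha h6
      obtain ⟨y, hy⟩ := exists_B_eq c hc hb s
      have hy' : (y : G) * (g * c.z * g⁻¹) * (y : G)⁻¹ = g * c.z * g⁻¹ * (c.z : G) ^ s.val :=
        congrArg Subtype.val hy
      refine ⟨g⁻¹ * y * g, ?_, ?_⟩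
      · calc _ = g⁻¹ * ((y : G) * (g * c.z * g⁻¹) * (y : G)⁻¹) * g := by group
          _ = g⁻¹ * (g * c.z * g⁻¹ * (g * a * g⁻¹) ^ s.val) * g := by rw [hy', h1]
          _ = _ := by rw [conj_pow, ee, ZMod.val_one]; group
      · calc _ = g⁻¹ * ((y : G) * (g * a * g⁻¹) * (y : G)⁻¹) * g := by group
          _ = g⁻¹ * (g * a * g⁻¹) * g := by rw [h1, hz]
          _ = _ := by rw [ee_zero_one]; group) l.ne_zero
  have k1 : τ ⟨n, hn⟩ (c.π a) = (l : ZMod p)⁻¹ • c.π a := by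
    rw [hτ ⟨n, hn⟩ a _ (hs.2.trans (hee _ _)), c.π_mul, c.π_ζ, zero_add, c.π_pow,
      ← Nat.cast_smul_eq_nsmul (ZMod p), ZMod.natCast_zmod_val]
  have k2 : ∀ u v, c.B (τ ⟨n, hn⟩ u) (τ ⟨n, hn⟩ v) = l * c.B u v := by
    intro u v
    obtain ⟨x, rfl⟩ := c.surj u
    obtain ⟨y, rfl⟩ := c.surj v
    set α := P.normalizerMonoidHom ⟨n, hn⟩ with hα
    have hαz : α c.z = c.ζ l := Subtype.ext (hs.1.trans (by simp [hee]))
    change c.B (c.θ hc α _) (c.θ hc α _) = _
    rw [c.θ_π, c.θ_π, c.B_eq_iff, ← map_commutatorElement, ← c.ζ_B, CExt.ζ, map_pow, hαz,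
      ← c.ζ_nsmul, nsmul_eq_mul, ZMod.natCast_zmod_val, mul_comm]
  refine ⟨ρ ⟨n, hn⟩, ⟨_, rfl⟩, smul_lnPt _ (hr a ha) (μ := (l : ZMod p)⁻¹) ?_, ?_⟩
  · rw [toGL2_mulVec, k1, _root_.map_smul]; rfl
  · set k := orderOf (ρ ⟨n, hn⟩) with hk
    have h3 : Matrix.ProjGenLinGroup.mk (toGL2 b (τ ⟨n, hn⟩ ^ k)) = 1 := by
      rw [map_pow, map_pow]; exact pow_orderOf_eq_one (ρ ⟨n, hn⟩)
    obtain ⟨μ, hμ⟩ := mulVec_of_mk_eq_one h3
    have h4 : ∀ v, (τ ⟨n, hn⟩ ^ k) v = μ • v := fun v => b.repr.injective (by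
      rw [_root_.map_smul]
      exact DFunLike.coe_injective ((toGL2_mulVec b _ v).symm.trans (hμ _)))
    have k3 : ∀ m : ℕ, (τ ⟨n, hn⟩ ^ m) (c.π a) = ((l : ZMod p)⁻¹ ^ m) • c.π a := fun m => by
      induction m with
      | zero => rw [pow_zero, pow_zero, one_smul]; rfl
      | succ m ih => rw [pow_succ', LinearEquiv.mul_apply, ih, _root_.map_smul, k1, smul_smul, pow_succ]
    have k4 : ∀ (m : ℕ) u v, c.B ((τ ⟨n, hn⟩ ^ m) u) ((τ ⟨n, hn⟩ ^ m) v) = l ^ m * c.B u v :=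
      fun m u v => by
        induction m with
        | zero => simp
        | succ m ih => rw [pow_succ', LinearEquiv.mul_apply, LinearEquiv.mul_apply, k2, ih]; ring
    have h5 : μ = (l : ZMod p)⁻¹ ^ k := smul_left_injective _ ha ((h4 _).symm.trans (k3 k))
    obtain ⟨y, hy⟩ := exists_B_eq c hc ha 1
    rw [c.conj_eq, mul_right_inj] at hy
    have h6 := k4 k (c.π y) (c.π a)
    rw [h4, h4, c.B_smul_left, c.B_skew, c.B_smul_left, c.B_skew, c.ζ_inj hy, h5] at h6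
    rw [← hl, orderOf_dvd_iff_pow_eq_one]
    apply Units.ext
    have h7 : (l : ZMod p) ^ k ≠ 0 := pow_ne_zero _ l.ne_zero
    rw [inv_pow] at h6
    field_simp at h6
    rw [Units.val_pow_eq_pow_val, pow_mul', ← h6, Units.val_one]

end core

end Cfsg.Agent.H9
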