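import Cfsg.Agent.H9.Simp
import Cfsg.Agent.H1.Coprime
import Cfsg.Agent.H6.Orb3

/-!
Certificates for the simplicity of the 2-fusion system of an explicit finite group.
-/

set_option autoImplicit false
set_option linter.unusedSectionVars false

namespace Cfsg.Agent.H9

open Cfsg Cfsg.Agent.H6
open scoped commutatorElement Pointwise

section pc
variable {G : Type*} [Group G] {g : ℕ → G} {k d i j n : ℕ} {x y : G}

/-- The subgroup generated by the letters in `[i, k)`. -/
def PcG (g : ℕ → G) (k i : ℕ) : Subgroup G := Subgroup.closure {x | ∃ j, i ≤ j ∧ j < k ∧ g j = x}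

theorem mem_pcG (h : i ≤ j) (h' : j < k) : g j ∈ PcG g k i := Subgroup.subset_closure ⟨j, h, h', rfl⟩

theorem pcG_le {H : Subgroup G} (h : ∀ j, i ≤ j → j < k → g j ∈ H) : PcG g k i ≤ H :=
  (Subgroup.closure_le _).2 fun _ ⟨j, a, b, e⟩ => e ▸ h j a b

theorem pcG_mono (h : i ≤ j) : PcG g k j ≤ PcG g k i := pcG_le fun _ a b => mem_pcG (h.trans a) b

theorem pcG_bot (h : k ≤ i) : PcG g k i = ⊥ := eq_bot_iff.2 (pcG_le fun _ a b => by omega)

/-- Power-commutator relations. -/
structure Pc (g : ℕ → G) (k d : ℕ) : Prop where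
  sq : ∀ i < k, g i * g i ∈ PcG g k d ⊓ PcG g k (i + 1)
  cm : ∀ i j, i < j → j < k → (g j)⁻¹ * (g i)⁻¹ * g j * g i ∈ PcG g k d ⊓ PcG g k (i + 1)

theorem conj_mem_of_gens {a : G} (h : ∀ j, i ≤ j → j < k → a⁻¹ * g j * a ∈ PcG g k i)
    (hx : x ∈ PcG g k i) : a⁻¹ * x * a ∈ PcG g k i := by
  have := pcG_le (H := (PcG g k i).comap (MulAut.conj a⁻¹).toMonoidHom)
    (fun j b c => by simpa using h j b c) hx
  simpa using this

theorem Pc.norm (h : Pc g k d) (hx : x ∈ PcG g k (i + 1)) : (g i)⁻¹ * x * g i ∈ PcG g k (i + 1) :=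
  conj_mem_of_gens (fun j a b => by
    have := (PcG g k (i + 1)).mul_mem (mem_pcG a b) (h.cm i j a b).2
    simpa [mul_assoc] using this) hx

theorem Pc.step (h : Pc g k d) (hi : i < k) (hx : x ∈ PcG g k i) :
    x ∈ PcG g k (i + 1) ∨ (g i)⁻¹ * x ∈ PcG g k (i + 1) := by
  let Q : Subgroup G :=
    { carrier := {x | x ∈ PcG g k (i + 1) ∨ (g i)⁻¹ * x ∈ PcG g k (i + 1)}
      one_mem' := Or.inl (one_mem _)
      mul_mem' := by
        rintro a b (ha | ha) (hb | hb)
        · exact Or.inl (mul_mem ha hb)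
        · exact Or.inr (by simpa [mul_assoc] using mul_mem (h.norm ha) hb)
        · exact Or.inr (by simpa [mul_assoc] using mul_mem ha hb)
        · exact Or.inl (by simpa [mul_assoc] using mul_mem (mul_mem (h.sq i hi).2 (h.norm ha)) hb)
      inv_mem' := by
        rintro a (ha | ha)
        · exact Or.inl (Subgroup.inv_mem _ ha)
        · exact Or.inr (by
            simpa [mul_assoc] using mul_mem (h.norm (Subgroup.inv_mem _ ha))
              (Subgroup.inv_mem _ (h.sq i hi).2)) }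
  refine pcG_le (H := Q) (fun j a b => ?_) hx
  rcases a.eq_or_lt with rfl | a
  · exact Or.inr (by simp)
  · exact Or.inl (mem_pcG a b)

theorem Pc.sq_mem (h : Pc g k d) (hx : x ∈ PcG g k i) : x * x ∈ PcG g k (i + 1) := by
  by_cases hi : i < k
  · rcases h.step hi hx with a | a
    · exact mul_mem a a
    · simpa [mul_assoc] using mul_mem (mul_mem (h.sq i hi).2 (h.norm a)) a
  · rw [pcG_bot (not_lt.1 hi), Subgroup.mem_bot] at hx
    simp [hx]

theorem Pc.pg (h : Pc g k d) : IsPGroup 2 (PcG g k 0) := fun x => ⟨k, by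
  have : ∀ n, (x : G) ^ 2 ^ n ∈ PcG g k n := fun n => by
    induction n with
    | zero => simp
    | succ n ih => rw [pow_succ, pow_mul, pow_two]; exact h.sq_mem ih
  have := this k
  rw [pcG_bot le_rfl, Subgroup.mem_bot] at this
  exact Subtype.ext this⟩

/-- Normal forms in the letters `i, …, i + n - 1`. -/
def NFm : ℕ → ℕ → List ℕ → Prop
  | 0, _, w => w = []
  | n + 1, i, w => NFm n (i + 1) w ∨ ∃ v, NFm n (i + 1) v ∧ w = i :: v

theorem NFm.mem {w : List ℕ} (h : NFm n i w) (hk : i + n ≤ k) : wp g w ∈ PcG g k i := by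
  induction n generalizing i w with
  | zero => rw [show w = [] from h]; exact one_mem _
  | succ n ih =>
    rcases h with h | ⟨v, h, rfl⟩
    · exact pcG_mono (Nat.le_succ i) (ih h (by omega))
    · rw [wp_cons]
      exact mul_mem (mem_pcG le_rfl (by omega)) (pcG_mono (Nat.le_succ i) (ih h (by omega)))

theorem Pc.exists_nf (h : Pc g k d) (hk : i + n ≤ k) (hx : x ∈ PcG g k i) :
    ∃ w, NFm n i w ∧ (wp g w)⁻¹ * x ∈ PcG g k (i + n) := by
  induction n generalizing i x with
  | zero => exact ⟨[], rfl, by simpa using hx⟩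
  | succ n ih =>
    rcases h.step (by omega) hx with a | a
    · obtain ⟨w, b, c⟩ := ih (by omega) a
      exact ⟨w, Or.inl b, by rwa [show i + (n + 1) = i + 1 + n by omega]⟩
    · obtain ⟨w, b, c⟩ := ih (by omega) a
      exact ⟨i :: w, Or.inr ⟨w, b, rfl⟩, by
        rw [show i + (n + 1) = i + 1 + n by omega]; simpa [mul_assoc] using c⟩

theorem Pc.exists_nf' (h : Pc g k d) (hk : i + n = k) (hx : x ∈ PcG g k i) :
    ∃ w, NFm n i w ∧ wp g w = x := by
  obtain ⟨w, a, b⟩ := h.exists_nf hk.le hx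
  rw [pcG_bot hk.ge, Subgroup.mem_bot, inv_mul_eq_one] at b
  exact ⟨w, a, b⟩

theorem NFm.up {w : List ℕ} (h : NFm n (i + j) w) : NFm (n + j) i w := by
  induction j generalizing n with
  | zero => exact h
  | succ j ih => rw [show n + (j + 1) = n + 1 + j by omega]; exact ih (Or.inl h)

theorem nfm_nil (n i : ℕ) : NFm n i [] := by
  induction n generalizing i with
  | zero => rfl
  | succ n ih => exact Or.inl (ih _)

theorem nfm_single (h : i < d) : NFm d 0 [i] := by
  obtain ⟨n, rfl⟩ := Nat.exists_eq_add_of_lt h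
  have : NFm (n + 1) (0 + i) [i] := Or.inr ⟨[], nfm_nil _ _, by simp⟩
  rw [show i + n + 1 = n + 1 + i by omega]
  exact this.up

theorem Pc.card_ge [Finite G] (h : Pc g k d) (h1 : ∀ w, NFm k 0 w → wp g w = 1 → w = []) :
    2 ^ k ≤ Nat.card (PcG g k 0) := by
  have : ∀ n i, i + n = k → 2 ^ n ≤ Nat.card (PcG g k i) := fun n => by
    induction n with
    | zero => exact fun i _ => Nat.card_pos
    | succ n ih =>
      intro i hi
      have a := ih (i + 1) (by omega)
      have b : PcG g k (i + 1) ≤ PcG g k i := pcG_mono (Nat.le_succ i)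
      have c : Nat.card (PcG g k (i + 1)) ≠ Nat.card (PcG g k i) := fun e => by
        have e' := Subgroup.eq_of_le_of_card_ge b e.ge
        obtain ⟨w, c, f⟩ := h.exists_nf' (i := i + 1) (n := n) (by omega)
          (e' ▸ Subgroup.inv_mem _ (mem_pcG le_rfl (by omega)) : (g i)⁻¹ ∈ PcG g k (i + 1))
        have l : NFm (n + 1) (0 + i) (i :: w) := Or.inr ⟨w, by simpa using c, by simp⟩
        have := h1 _ (by have := l.up; rwa [show n + 1 + i = k by omega] at this) (by simp [f])
        cases this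
      obtain ⟨m, e⟩ := Subgroup.card_dvd_of_le b
      have : 0 < Nat.card (PcG g k i) := Nat.card_pos
      have : 2 ≤ m := by
        rcases m with _ | _ | m
        · omega
        · omega
        · omega
      rw [e, pow_succ]
      exact Nat.mul_le_mul a this
  exact this k 0 (by omega)

theorem Pc.syl [Finite G] (h : Pc g k d) (h1 : ∀ w, NFm k 0 w → wp g w = 1 → w = []) {m : ℕ}
    (hm : Nat.card G = 2 ^ k * m) (ho : ¬ 2 ∣ m) : Syl 2 (PcG g k 0) ⊤ := by
  obtain ⟨T, -, a⟩ := exists_syl (p := 2) (K := (⊥ : Subgroup G)) (A := ⊤) le_top IsPGroup.of_bot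
  refine a.of_card le_top h.pg (le_trans ?_ (h.card_ge h1))
  obtain ⟨n, e⟩ := IsPGroup.iff_card.1 a.pg
  have b := T.card_subgroup_dvd_card
  rw [hm, e] at b
  rw [e]
  exact Nat.le_of_dvd (by positivity)
    ((Nat.Coprime.pow_left n ((Nat.Prime.coprime_iff_not_dvd Nat.prime_two).2 ho)).dvd_of_dvd_mul_right b)

theorem Pc.normD (h : Pc g k d) (hy : y ∈ PcG g k 0) (hx : x ∈ PcG g k d) [Finite G] :
    y⁻¹ * x * y ∈ PcG g k d := by
  have : PcG g k 0 ≤ Subgroup.normalizer (PcG g k d : Set G) := pcG_le fun i _ hi =>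
    (Subgroup.inv_mem_iff _).1 (mem_normalizer_of_finite fun x hx => by
      rw [inv_inv]
      refine conj_mem_of_gens (fun j a b => ?_) hx
      by_cases c : i < j
      · simpa [mul_assoc] using mul_mem (mem_pcG a b) (h.cm i j c b).1
      · have e : g i ∈ PcG g k d := mem_pcG (by omega) hi
        exact mul_mem (mul_mem (Subgroup.inv_mem _ e) (mem_pcG a b)) e)
  simpa using (Subgroup.mem_normalizer_iff.1 (Subgroup.inv_mem _ (this hy)) x).1 hx

theorem Pc.comm_mem [Finite G] (h : Pc g k d) (hx : x ∈ PcG g k 0) (hy : y ∈ PcG g k 0) :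
    x⁻¹ * y⁻¹ * x * y ∈ PcG g k d := by
  have key : ∀ y, (∀ j < k, (g j)⁻¹ * y⁻¹ * g j * y ∈ PcG g k d) → ∀ x ∈ PcG g k 0,
      x⁻¹ * y⁻¹ * x * y ∈ PcG g k d := fun y hy x hx => by
    induction hx using Subgroup.closure_induction with
    | mem x hx => obtain ⟨j, -, b, rfl⟩ := hx; exact hy j b
    | one => simp
    | mul a b _ hb c e => simpa [mul_assoc] using mul_mem (h.normD hb c) e
    | inv a ha c =>
      simpa [mul_assoc] using h.normD (Subgroup.inv_mem _ ha) (Subgroup.inv_mem _ c)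
  refine key y (fun j hj => ?_) x hx
  have := Subgroup.inv_mem _ (key (g j) (fun i hi => ?_) y hy)
  · simpa [mul_assoc] using this
  · rcases lt_trichotomy i j with a | rfl | a
    · simpa [mul_assoc] using Subgroup.inv_mem _ (h.cm i j a hj).1
    · simp
    · exact (h.cm j i a hi).1

theorem Pc.frattini_le [Finite G] (h : Pc g k d) :
    (frattini (PcG g k 0)).map (PcG g k 0).subtype ≤ PcG g k d := by
  refine H1.map_frattini_le_of_elementary Nat.prime_two (Subgroup.commutator_le.2 fun x hx y hy => ?_)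
    fun x hx => ?_
  · simpa [commutatorElement_def] using h.comm_mem (Subgroup.inv_mem _ hx) (Subgroup.inv_mem _ hy)
  · rw [pow_two]
    induction hx using Subgroup.closure_induction with
    | mem x hx => obtain ⟨j, -, b, rfl⟩ := hx; exact (h.sq j b).1
    | one => simp
    | mul a b ha hb c e =>
      simpa [mul_assoc] using mul_mem (mul_mem c (h.comm_mem ha (Subgroup.inv_mem _ hb))) e
    | inv a _ c => simpa using Subgroup.inv_mem _ c

end pc

/-- If squares of elements of `N(S)` act trivially on `S / Φ(S)` then `N(S) = S C(S)`. -/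
theorem normalizer_le_of_sq {G : Type*} [Group G] [Finite G] {S : Subgroup G} (hs : Syl 2 S ⊤)
    (h : ∀ a ∈ Subgroup.normalizer (S : Set G), ∀ x ∈ S,
      x⁻¹ * (a * a * x * (a * a)⁻¹) ∈ (frattini S).map S.subtype) :
    Subgroup.normalizer (S : Set G) ≤ S ⊔ Subgroup.centralizer (S : Set G) := fun a ha => by
  obtain ⟨e, m, hm, ho⟩ := Nat.exists_eq_two_pow_mul_odd (orderOf_pos a).ne'
  have hc : (2 ^ e).Coprime m := Nat.Coprime.pow_left _ (Nat.coprime_two_left.2 hm)
  have h0 : a ^ (2 ^ e * m) = 1 := ho ▸ pow_orderOf_eq_one a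
  have h1 : a ^ m ∈ S := hs.sylIn.mem_of_mem_normalizer trivial (k := e)
    (by rw [← pow_mul, mul_comm, h0]) (pow_mem ha m)
  have h2 : (a ^ 2 ^ e) ^ m = 1 := by rw [← pow_mul, h0]
  have h3 : a ^ 2 ^ e ∈ Subgroup.centralizer (S : Set G) := by
    refine H1.le_centralizer_of_commutator_le_frattini (A := Subgroup.zpowers (a ^ 2 ^ e))
      (Subgroup.zpowers_le.2 (pow_mem ha _)) ?_ (Subgroup.commutator_le.2 fun x hx c hc => ?_)
      (Subgroup.mem_zpowers _)
    · obtain ⟨n, hn⟩ := IsPGroup.iff_card.1 (hs.pg.to_subgroup (frattini S))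
      rw [hn, Nat.card_zpowers]
      exact (Nat.Coprime.pow_right n (Nat.coprime_two_right.2 hm)).coprime_dvd_left
        (orderOf_dvd_of_pow_eq_one h2)
    · obtain ⟨j, rfl⟩ := (mem_powers_iff_mem_zpowers.2 hc)
      obtain ⟨t, rfl⟩ := hm
      have := h (((a ^ 2 ^ e) ^ j) ^ (t + 1)) (pow_mem (pow_mem (pow_mem ha _) _) _) x⁻¹ (S.inv_mem hx)
      rw [← pow_add, show t + 1 + (t + 1) = 2 * t + 1 + 1 by ring, pow_succ, ← pow_mul _ j,
        mul_comm j, pow_mul, h2, one_pow, one_mul] at this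
      simpa [commutatorElement_def, mul_assoc] using this
  have h4 : a = (a ^ 2 ^ e) ^ Nat.gcdA (2 ^ e) m * (a ^ m) ^ Nat.gcdB (2 ^ e) m := by
    rw [← zpow_natCast, ← zpow_natCast, ← zpow_mul, ← zpow_mul, ← zpow_add, ← Nat.gcd_eq_gcd_ab, hc]
    simp
  rw [h4]
  exact mul_mem (Subgroup.mem_sup_right (zpow_mem h3 _)) (Subgroup.mem_sup_left (zpow_mem h1 _))

section chk
variable {G : Type*} [Group G] {g : ℕ → G} {k d i n : ℕ} {eqv : List ℕ → List ℕ → Bool}

/-- All letters lie in `[i, k)`. -/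
noncomputable def inW (i k : ℕ) (w : List ℕ) : Bool :=
  lall (fun l => band (Nat.ble i l) (Nat.ble (Nat.succ l) k)) w

theorem mem_of_inW {w : List ℕ} (h : inW i k w = true) : wp g w ∈ PcG g k i :=
  wp_mem fun l hl => by
    have := (lall_eq _ _).1 h l hl
    rw [band_eq, ble_eq, ble_eq] at this
    exact mem_pcG this.1 this.2

noncomputable def pcChk (eqv : List ℕ → List ℕ → Bool) (k d : ℕ) (rel : List (List (List ℕ))) : Bool :=
  nall (fun i => nall (fun j => bor (Nat.ble (Nat.succ j) i)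
    (band (band (inW d k (lk [] (lk [] rel i) j)) (inW (Nat.succ i) k (lk [] (lk [] rel i) j)))
      (bor (band (Nat.beq i j) (eqv [i, i] (lk [] (lk [] rel i) j)))
        (band (Nat.ble (Nat.succ i) j) (eqv [j, i] (i :: j :: lk [] (lk [] rel i) j)))))) k) k

theorem pc_of_chk (he : ∀ u w, eqv u w = true ↔ wp g u = wp g w) {rel : List (List (List ℕ))}
    (h : pcChk eqv k d rel = true) : Pc g k d := by
  simp only [pcChk, nall_eq, bor_eq, band_eq, ble_eq, beq_eq, he] at h
  constructor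
  · intro i hi
    rcases h i hi i hi with a | ⟨⟨a, b⟩, ⟨-, c⟩ | ⟨c, -⟩⟩
    · omega
    · rw [show g i * g i = _ by simpa using c]
      exact ⟨mem_of_inW a, mem_of_inW b⟩
    · omega
  · intro i j hij hj
    rcases h i (by omega) j hj with a | ⟨⟨a, b⟩, ⟨c, -⟩ | ⟨-, c⟩⟩
    · omega
    · omega
    · have : (g j)⁻¹ * (g i)⁻¹ * g j * g i = wp g (lk [] (lk [] rel i) j) := by
        simp only [wp_cons, wp_nil, mul_one] at c
        rw [mul_assoc, c]; group
      rw [this]
      exact ⟨mem_of_inW a, mem_of_inW b⟩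

noncomputable def allNF (n : ℕ) : ℕ → (List ℕ → Bool) → Bool :=
  Nat.rec (motive := fun _ => ℕ → (List ℕ → Bool) → Bool) (fun _ f => f [])
    (fun _ ih i f => ih (Nat.succ i) (fun w => band (f w) (f (i :: w)))) n

theorem allNF_spec {f : List ℕ → Bool} (h : allNF n i f = true) {w : List ℕ} (hw : NFm n i w) :
    f w = true := by
  induction n generalizing i f w with
  | zero => rw [show w = [] from hw]; exact h
  | succ n ih =>
    have h' : allNF n (i + 1) (fun w => band (f w) (f (i :: w))) = true := h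
    rcases hw with a | ⟨v, a, rfl⟩
    · exact ((band_eq _ _).1 (ih h' a)).1
    · exact ((band_eq _ _).1 (ih h' a)).2

noncomputable def orNF (n : ℕ) : ℕ → (List ℕ → ℕ) → ℕ :=
  Nat.rec (motive := fun _ => ℕ → (List ℕ → ℕ) → ℕ) (fun _ f => f [])
    (fun _ ih i f => ih (Nat.succ i) (fun w => Nat.lor (f w) (f (i :: w)))) n

theorem testBit_orNF {f : List ℕ → ℕ} {b : ℕ} :
    (orNF n i f).testBit b = true ↔ ∃ w, NFm n i w ∧ (f w).testBit b = true := by
  induction n generalizing i f with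
  | zero => exact ⟨fun h => ⟨[], rfl, h⟩, fun ⟨w, a, h⟩ => by rw [show w = [] from a] at h; exact h⟩
  | succ n ih =>
    have : orNF (n + 1) i f = orNF n (i + 1) (fun w => f w ||| f (i :: w)) := rfl
    rw [this, ih]
    simp only [Nat.testBit_or, Bool.or_eq_true]
    constructor
    · rintro ⟨w, a, c | c⟩
      · exact ⟨w, Or.inl a, c⟩
      · exact ⟨_, Or.inr ⟨w, a, rfl⟩, c⟩
    · rintro ⟨w, a | ⟨v, a, rfl⟩, c⟩
      · exact ⟨w, a, Or.inl c⟩
      · exact ⟨v, a, Or.inr c⟩

noncomputable def isNil (w : List ℕ) : Bool := List.rec (motive := fun _ => Bool) true (fun _ _ _ => false) w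

theorem isNil_eq {w : List ℕ} (h : isNil w = true) : w = [] := by
  cases w
  · rfl
  · cases h

/-- Nontrivial normal forms are nontrivial, and only `z` among them can be central. -/
noncomputable def cenChk (eqv : List ℕ → List ℕ → Bool) (k d : ℕ) (z : List ℕ) : Bool :=
  allNF k 0 fun w => bor (isNil w) (band (beqb (eqv w []) false)
    (bor (beqb (nall (fun i => eqv (lapp w [i]) (i :: w)) d) false) (eqv w z)))

/-- product of squares -/
noncomputable def sqs (us : List (List ℕ)) : List ℕ :=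
  List.rec (motive := fun _ => List ℕ) [] (fun u _ ih => lapp u (lapp u ih)) us

noncomputable def sqChk (eqv : List ℕ → List ℕ → Bool) (k d : ℕ) (dat : List (List (List ℕ))) : Bool :=
  nall (fun j => bor (Nat.ble (Nat.succ j) d)
    (band (lall (inW 0 k) (lk [] dat j)) (eqv [j] (sqs (lk [] dat j))))) k

theorem Pc.frattini_eq [Finite G] (h : Pc g k d) (he : ∀ u w, eqv u w = true ↔ wp g u = wp g w)
    {dat : List (List (List ℕ))} (hc : sqChk eqv k d dat = true) :
    (frattini (PcG g k 0)).map (PcG g k 0).subtype = PcG g k d := by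
  refine le_antisymm h.frattini_le (pcG_le fun j a b => ?_)
  simp only [sqChk, nall_eq, bor_eq, band_eq, ble_eq, he, lall_eq] at hc
  rcases hc j b with c | ⟨c, e⟩
  · omega
  · rw [show g j = _ by simpa using e]
    generalize lk [] dat j = us at c
    induction us with
    | nil => exact one_mem _
    | cons u us ih =>
      have : sqs (u :: us) = lapp u (lapp u (sqs us)) := rfl
      rw [this, lapp_eq, lapp_eq, wp_append, wp_append, ← mul_assoc, ← pow_two]
      exact mul_mem (H1.pow_mem_map_frattini h.pg (mem_of_inW (c u (by simp))))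
        (ih fun u hu => c u (by simp [hu]))

/-- The set of colours on a coset of the Frattini subgroup. -/
noncomputable def sig (col : List ℕ → ℕ) (k d : ℕ) (v : List ℕ) : ℕ :=
  orNF (Nat.sub k d) d fun w => Nat.pow 2 (col (lapp v w))

noncomputable def sigChk (eqv : List ℕ → List ℕ → Bool) (col : List ℕ → ℕ) (k d : ℕ) (σ : List ℕ)
    (b : List (List ℕ)) : Bool :=
  band (lall (inW 0 k) b) (allNF d 0 fun v => seq (sig col k d v) fun s =>
    nall (fun i => beqb (Nat.beq s (lk 0 σ i)) (bor (eqv v [i]) (eqv v (lk [] b i)))) d)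

theorem Pc.sq_triv [Finite G] (h : Pc g k d) (hd : d ≤ k)
    (he : ∀ u w, eqv u w = true ↔ wp g u = wp g w)
    (hF : (frattini (PcG g k 0)).map (PcG g k 0).subtype = PcG g k d)
    {col : List ℕ → ℕ} {c : G → ℕ} (hc : ∀ w, col w = c (wp g w))
    (hi : ∀ a ∈ Subgroup.normalizer (PcG g k 0 : Set G), ∀ x, c (a * x * a⁻¹) = c x)
    {σ : List ℕ} {b : List (List ℕ)} (hs : sigChk eqv col k d σ b = true)
    (a : G) (ha : a ∈ Subgroup.normalizer (PcG g k 0 : Set G)) (x : G) (hx : x ∈ PcG g k 0) :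
    x⁻¹ * (a * a * x * (a * a)⁻¹) ∈ (frattini (PcG g k 0)).map (PcG g k 0).subtype := by
  have hn := H1.normalizer_le_normalizer_map_frattini _ ha
  rw [hF] at hn ⊢
  have n1 : ∀ y, y ∈ PcG g k d ↔ a * y * a⁻¹ ∈ PcG g k d := Subgroup.mem_normalizer_iff.1 hn
  have n0 : ∀ y ∈ PcG g k 0, a * y * a⁻¹ ∈ PcG g k 0 := fun y =>
    (Subgroup.mem_normalizer_iff.1 ha y).1
  have s1 : ∀ v n, (sig col k d v).testBit n = true ↔ ∃ y ∈ PcG g k d, c (wp g v * y) = n := by
    intro v n
    rw [sig, testBit_orNF]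
    simp only [hc, lapp_eq, wp_append, Nat.pow_eq, Nat.testBit_two_pow, decide_eq_true_eq]
    exact ⟨fun ⟨w, e, f⟩ => ⟨_, e.mem (by simp; omega), f⟩, fun ⟨y, e, f⟩ => by
      obtain ⟨w, l, rfl⟩ := h.exists_nf' (n := Nat.sub k d) (by simp; omega) e
      exact ⟨w, l, f⟩⟩
  have s2 : ∀ u v, (wp g v)⁻¹ * (a * wp g u * a⁻¹) ∈ PcG g k d → sig col k d v = sig col k d u := by
    intro u v e
    refine Nat.eq_of_testBit_eq fun n => Bool.eq_iff_iff.2 ?_
    rw [s1, s1]
    constructor
    · rintro ⟨y, l, rfl⟩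
      refine ⟨a⁻¹ * (((wp g v)⁻¹ * (a * wp g u * a⁻¹))⁻¹ * y) * a, (n1 _).2 (by
        simpa [mul_assoc] using mul_mem (Subgroup.inv_mem _ e) l), ?_⟩
      rw [← hi a ha]; congr 1; group
    · rintro ⟨y, l, rfl⟩
      refine ⟨_, mul_mem e ((n1 _).1 l), ?_⟩
      rw [← hi a ha (wp g u * y)]; congr 1; group
  rw [sigChk, band_eq, lall_eq] at hs
  have s3 : ∀ v, NFm d 0 v → ∀ i < d, (sig col k d v = lk 0 σ i ↔
      wp g v = g i ∨ wp g v = wp g (lk [] b i)) := fun v hv i l => by
    have := allNF_spec hs.2 hv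
    rw [seq_eq, nall_eq] at this
    have := (beqb_eq _ _).1 (this i l)
    rw [Bool.eq_iff_iff, beq_eq, bor_eq, he, he] at this
    simpa using this
  have s4 : ∀ i < k, (g i)⁻¹ * (a * a * g i * (a * a)⁻¹) ∈ PcG g k d := fun i l => by
    by_cases e : i < d
    swap
    · have := mem_pcG (g := g) (not_lt.1 e) l
      simpa [mul_assoc] using mul_mem (Subgroup.inv_mem _ this) ((n1 _).1 ((n1 _).1 this))
    have t : ∀ u, NFm d 0 u → sig col k d u = lk 0 σ i → ∃ v, NFm d 0 v ∧
        sig col k d v = lk 0 σ i ∧ (wp g v)⁻¹ * (a * wp g u * a⁻¹) ∈ PcG g k d := fun u p q => by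
      obtain ⟨v, r, s⟩ := h.exists_nf (i := 0) (n := d) (by omega) (n0 _ (p.mem (by omega)))
      rw [zero_add] at s
      exact ⟨v, r, (s2 u v s).trans q, s⟩
    obtain ⟨v, p, q, r⟩ := t [i] (nfm_single e) ((s3 _ (nfm_single e) i e).2 (Or.inl (by simp)))
    simp only [wp_cons, wp_nil, mul_one] at r
    rcases (s3 v p i e).1 q with s | s
    · rw [s] at r
      simpa [mul_assoc] using mul_mem r ((n1 _).1 r)
    obtain ⟨v', p', q', r'⟩ := t v p q
    rcases (s3 v' p' i e).1 q' with s' | s'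
    · rw [s'] at r'
      simpa [mul_assoc] using mul_mem r' ((n1 _).1 r)
    · rw [s'.trans s.symm] at r'
      have u : (g i)⁻¹ * wp g v ∈ PcG g k d := (n1 _).2 (by
        simpa [mul_assoc] using mul_mem (Subgroup.inv_mem _ r) r')
      have u' := mul_mem u r
      simpa [mul_assoc] using mul_mem u' ((n1 _).1 u')
  generalize a * a = a' at s4
  induction hx using Subgroup.closure_induction with
  | mem x hx => obtain ⟨j, -, b, rfl⟩ := hx; exact s4 j b
  | one => simp
  | mul x y _ hy p q => simpa [mul_assoc] using mul_mem (h.normD hy p) q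
  | inv x hx p => simpa [mul_assoc] using h.normD (Subgroup.inv_mem _ hx) (Subgroup.inv_mem _ p)

/-- Derivation of elements of a strongly closed subgroup. -/
noncomputable def derChk (eqv : List ℕ → List ℕ → Bool) (k : ℕ) (fin : List (List ℕ))
    (st : List (List ℕ × List ℕ × List ℕ)) : List (List ℕ) → Bool :=
  List.rec (motive := fun _ => List (List ℕ) → Bool)
    (fun D => nall (fun i => eqv [i] (sel D (lk [] fin i))) k)
    (fun s _ ih D => band (band (inW 0 k s.2.2) (eqv (lapp s.2.1 (sel D s.1)) (lapp s.2.2 s.2.1)))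
      (ih (s.2.2 :: D))) st

theorem le_of_derChk (he : ∀ u w, eqv u w = true ↔ wp g u = wp g w) {T : Subgroup G}
    (hT : SCl (PcG g k 0) T) {fin : List (List ℕ)} {st : List (List ℕ × List ℕ × List ℕ)}
    {D : List (List ℕ)} (h : derChk eqv k fin st D = true) (hD : cl g D ≤ T) : PcG g k 0 ≤ T := by
  induction st generalizing D with
  | nil =>
    refine pcG_le fun i _ l => ?_
    rw [show g i = _ by simpa using (he _ _).1 ((nall_eq _ _).1 h i l)]
    exact hD (wp_sel_mem _ _)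
  | cons s st ih =>
    obtain ⟨⟨a, b⟩, c⟩ : (inW 0 k s.2.2 = true ∧
        eqv (lapp s.2.1 (sel D s.1)) (lapp s.2.2 s.2.1) = true) ∧
        derChk eqv k fin st (s.2.2 :: D) = true := by
      rw [← band_eq, ← band_eq]; exact h
    rw [he, lapp_eq, lapp_eq, wp_append, wp_append, ← mul_inv_eq_iff_eq_mul] at b
    refine ih c (cl_le.2 fun w hw => ?_)
    rcases List.mem_cons.1 hw with rfl | hw
    · exact b ▸ hT.2 _ (hD (wp_sel_mem D s.1)) _ (b ▸ mem_of_inW a)
    · exact hD (wp_mem_cl hw)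

theorem simple_of_chk [Finite G] (he : ∀ u w, eqv u w = true ↔ wp g u = wp g w)
    {col : List ℕ → ℕ} {c : G → ℕ} (hc : ∀ w, col w = c (wp g w))
    (hi : ∀ a ∈ Subgroup.normalizer (PcG g k 0 : Set G), ∀ x, c (a * x * a⁻¹) = c x)
    (hd : d ≤ k) (hk : 0 < k) {m : ℕ} (hm : Nat.card G = 2 ^ k * m) (ho : ¬ 2 ∣ m)
    {rel sq : List (List (List ℕ))} {z σ : List ℕ} {b fin : List (List ℕ)}
    {st : List (List ℕ × List ℕ × List ℕ)} (h1 : pcChk eqv k d rel = true)
    (h2 : cenChk eqv k d z = true) (h3 : sqChk eqv k d sq = true)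
    (h4 : sigChk eqv col k d σ b = true) (h5 : derChk eqv k fin st [z] = true) (S : Sylow 2 G) :
    (groupFusionSystem (S : Subgroup G)).IsSimple 2 := by
  have h := pc_of_chk he h1
  have a : ∀ w, NFm k 0 w → w = [] ∨ wp g w ≠ 1 ∧
      ((∀ i < d, wp g w * g i = g i * wp g w) → wp g w = wp g z) := fun w hw => by
    have := allNF_spec h2 hw
    rw [bor_eq, band_eq, bor_eq, beqb_eq, beqb_eq, ← Bool.not_eq_true, ← Bool.not_eq_true, he, he,
      nall_eq] at this
    refine this.imp isNil_eq fun e => ⟨e.1, fun f => e.2.resolve_left (not_not.2 fun i l => ?_)⟩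
    rw [he, lapp_eq]; simpa using f i l
  have a1 : ∀ w, NFm k 0 w → wp g w = 1 → w = [] := fun w p q => (a w p).resolve_right (·.1 q)
  have hs := h.syl a1 hm ho
  refine simple_sylow hs (simple_of_selfnorm hs (fun e => ?_) (fun T p q => ?_)
    (normalizer_le_of_sq hs (h.sq_triv hd he (h.frattini_eq he h3) hc hi h4))) S
  · have := h.card_ge a1
    rw [e, Subgroup.card_bot] at this
    exact absurd (Nat.one_lt_two_pow hk.ne') (not_lt.2 this)
  · obtain ⟨x, r, s, t⟩ := p.exists_central hs.pg q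
    obtain ⟨w, l, rfl⟩ := h.exists_nf' (zero_add k) (p.1 r)
    refine le_of_derChk he p h5 (cl_le.2 fun v hv => ?_)
    rw [List.mem_singleton.1 hv]
    rcases a w l with rfl | ⟨-, e⟩
    · simp at s
    · exact e (fun i hi => (t _ (mem_pcG (Nat.zero_le _) (by omega))).symm) ▸ r

end chk

section model
open MulAction
variable {G Ω : Type*} [Group G] [MulAction G Ω] {N : ℕ} {X : ℕ → Ω} {g : ℕ → G} {nets : ℕ → Net}

theorem eqChk_iff (hm : IsModel N X g nets vT) (hf : Faith G N X) {k : ℕ} (hk : N ≤ 2 ^ k)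
    (u w : List ℕ) : eqChk N k nets vT u w = true ↔ wp g u = wp g w := by
  refine ⟨hm.toIsPre.wp_eq hf, fun e => ?_⟩
  simp only [eqChk, band_eq, ble_eq, wok_iff, nall_eq, beq_eq]
  have hu : ∀ l ∈ u, vT l = true := fun _ _ => rfl
  have hw : ∀ l ∈ w, vT l = true := fun _ _ => rfl
  refine ⟨hu, hw, hk, fun b _ => Nat.eq_of_testBit_eq fun i => ?_⟩
  rw [hm.ok.testBit_appW hu, hm.ok.testBit_appW hw]
  by_cases hi : i < N
  · rw [hm.inj _ ((hm.ok.fnW_lt hu i).2 hi) _ ((hm.ok.fnW_lt hw i).2 hi)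
      (by rw [← hm.cmpW hu hi, ← hm.cmpW hw hi, e])]
  · have : ∀ j, ¬ j < N → (sl N k b).testBit j = false := fun j hj =>
      Nat.testBit_lt_two_pow (lt_of_lt_of_le (Nat.mod_lt _ (Nat.two_pow_pos N))
        (Nat.pow_le_pow_right (by norm_num) (not_lt.1 hj)))
    rw [this _ (by rwa [hm.ok.fnW_lt hu]), this _ (by rwa [hm.ok.fnW_lt hw])]

/-- fixed-point counts on a list of masks -/
noncomputable def colM (N k k' : ℕ) (nets : ℕ → Net) (As : List ℕ) (w : List ℕ) : ℕ :=
  seq (fixM N k nets w) fun m => List.rec (motive := fun _ => ℕ) 0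
    (fun A _ ih => Nat.add (popc k' (Nat.land m A)) (Nat.mul 17 ih)) As

noncomputable def colS (N : ℕ) (X : ℕ → Ω) (As : List ℕ) (x : G) : ℕ :=
  List.rec (motive := fun _ => ℕ) 0
    (fun A _ ih => {y | y ∈ pts N X A ∧ x • y = y}.ncard + 17 * ih) As

theorem colM_eq (hm : IsModel N X g nets vT) {k k' : ℕ} (hk : N ≤ 2 ^ k) (hk' : N ≤ 8 * 2 ^ k')
    {As : List ℕ} (hA : ∀ A ∈ As, A < 2 ^ N) (w : List ℕ) :
    colM N k k' nets As w = colS N X As (wp g w) := by
  rw [colM, seq_eq]
  induction As with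
  | nil => rfl
  | cons A As ih =>
    have a : fixM N k nets w &&& A < 2 ^ N := lt_of_le_of_lt Nat.and_le_right (hA A (by simp))
    have b : popc k' (fixM N k nets w &&& A) = {y | y ∈ pts N X A ∧ wp g w • y = y}.ncard := by
      rw [← popc_eq k' _ (lt_of_lt_of_le a (Nat.pow_le_pow_right (by norm_num) hk')), bits_mono hk' a,
        ← hm.ncard_pts, hm.pts_land, hm.pts_fixM (wok_iff.2 fun _ _ => rfl) hk]
      congr 1
      ext y
      exact ⟨fun h => ⟨h.2, h.1.2⟩, fun h => ⟨⟨pts_subset_rng _ _ _ h.1, h.2⟩, h.1⟩⟩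
    exact congrArg₂ (fun a b => a + 17 * b) b (ih fun A h => hA A (by simp [h]))

theorem colS_conj {As : List ℕ} {a : G} (hA : ∀ A ∈ As, ∀ y, a • y ∈ pts N X A ↔ y ∈ pts N X A)
    (x : G) : colS N X As (a * x * a⁻¹) = colS N X As x := by
  induction As with
  | nil => rfl
  | cons A As ih =>
    refine congrArg₂ (fun a b => a + 17 * b) ?_ (ih fun A h => hA A (by simp [h]))
    rw [← Set.ncard_image_of_injective {y | y ∈ pts N X A ∧ x • y = y} (MulAction.injective a)]
    congr 1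
    ext y
    constructor
    · rintro ⟨p, q⟩
      refine ⟨a⁻¹ • y, ⟨(hA A (by simp) _).1 (by simpa using p), ?_⟩, by simp⟩
      rw [mul_smul, mul_smul, smul_eq_iff_eq_inv_smul] at q
      exact q
    · rintro ⟨y, ⟨p, q⟩, rfl⟩
      exact ⟨(hA A (by simp) _).2 p, by simp [mul_smul, q]⟩

noncomputable def sing (k : ℕ) : List (List ℕ) :=
  Nat.rec (motive := fun _ => List (List ℕ)) [] (fun i ih => [i] :: ih) k

theorem cl_sing (k : ℕ) : cl g (sing k) = PcG g k 0 := by
  have : ∀ w, w ∈ sing k ↔ ∃ i < k, w = [i] := fun w => by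
    induction k with
    | zero => simp [sing]
    | succ k ih =>
      rw [show sing (k + 1) = [k] :: sing k from rfl, List.mem_cons, ih]
      exact ⟨fun h => h.elim (fun e => ⟨k, by omega, e⟩) fun ⟨i, a, e⟩ => ⟨i, by omega, e⟩,
        fun ⟨i, a, e⟩ => (Nat.lt_succ_iff_lt_or_eq.1 a).elim (fun a => Or.inr ⟨i, a, e⟩)
          fun a => Or.inl (a ▸ e)⟩
  refine le_antisymm (cl_le.2 fun w hw => ?_) (pcG_le fun j _ b => ?_)
  · obtain ⟨i, a, rfl⟩ := (this w).1 hw
    simpa using mem_pcG (Nat.zero_le _) a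
  · simpa using wp_mem_cl (gens := g) ((this _).2 ⟨j, b, rfl⟩)

/-- Each mask is the set of points whose orbit has a given length. -/
noncomputable def mskChk (N k' : ℕ) (nets : ℕ → Net) (k : ℕ) (ns : List ℕ) (As ss : List ℕ) : Bool :=
  band (nall (fun p => orbChk N k' nets vT (sing k) 20 p (lk 0 ns p)) N)
    (lall2 (fun A s => band (Nat.beq (Nat.shiftRight A N) 0)
      (nall (fun p => beqb (tb A p) (Nat.beq (lk 0 ns p) s)) N)) As ss)

theorem simple_of_model [Finite G] (hm : IsModel N X g nets vT) (hf : Faith G N X)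
    (hX : ∀ y, y ∈ rng N X) {k k₁ k₂ d m : ℕ} (hk₁ : N ≤ 2 ^ k₁) (hk₂ : N ≤ 8 * 2 ^ k₂)
    (hd : d ≤ k) (hk : 0 < k) (hG : Nat.card G = 2 ^ k * m) (ho : ¬ 2 ∣ m) {ns As ss : List ℕ}
    {rel sq : List (List (List ℕ))} {z σ : List ℕ} {b fin : List (List ℕ)}
    {st : List (List ℕ × List ℕ × List ℕ)} (h0 : mskChk N k₂ nets k ns As ss = true)
    (h1 : pcChk (eqChk N k₁ nets vT) k d rel = true)
    (h2 : cenChk (eqChk N k₁ nets vT) k d z = true) (h3 : sqChk (eqChk N k₁ nets vT) k d sq = true)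
    (h4 : sigChk (eqChk N k₁ nets vT) (colM N k₁ k₂ nets As) k d σ b = true)
    (h5 : derChk (eqChk N k₁ nets vT) k fin st [z] = true) (S : Sylow 2 G) :
    (groupFusionSystem (S : Subgroup G)).IsSimple 2 := by
  rw [mskChk, band_eq, nall_eq] at h0
  have hA : ∀ A ∈ As, A < 2 ^ N ∧ ∃ s, ∀ y, y ∈ pts N X A ↔ (orbit (PcG g k 0) y).ncard = s := by
    intro A hA
    obtain ⟨s, -, e⟩ := lall2_spec h0.2 A hA
    simp only [band_eq, beq_eq, nall_eq, beqb_eq, tb_eq] at e
    refine ⟨lt_of_shiftRight_eq_zero e.1, s, fun y => ?_⟩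
    obtain ⟨p, a, rfl⟩ := hX y
    rw [hm.mem_pts a, e.2 p a, beq_eq, ← cl_sing, hm.ncard_orbit (h0.1 p a)]
  refine simple_of_chk (eqChk_iff hm hf hk₁) (colM_eq hm hk₁ hk₂ fun A h => (hA A h).1)
    (fun a ha => colS_conj fun A h y => ?_) hd hk hG ho h1 h2 h3 h4 h5 S
  obtain ⟨-, s, e⟩ := hA A h
  rw [e, e, ← Set.ncard_image_of_injective (orbit (PcG g k 0) y) (MulAction.injective a)]
  have : orbit (PcG g k 0) (a • y) = (fun x => a • x) '' orbit (PcG g k 0) y := by
    ext t
    simp only [Set.mem_image, mem_orbit_sub]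
    constructor
    · rintro ⟨u, p, rfl⟩
      exact ⟨_, ⟨a⁻¹ * u * a, by
        simpa using (Subgroup.mem_normalizer_iff.1 (Subgroup.inv_mem _ ha) u).1 p, rfl⟩,
        by simp [mul_smul]⟩
    · rintro ⟨_, ⟨u, p, rfl⟩, rfl⟩
      exact ⟨_, (Subgroup.mem_normalizer_iff.1 ha u).1 p, by simp [mul_smul]⟩
  rw [this]

end model

end Cfsg.Agent.H9
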