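import Cfsg.Agent.H4.Dick8

/-! Central products of two copies of `SL₂` in odd characteristic. -/

set_option autoImplicit false

namespace Cfsg.Agent.H9

open Subgroup Matrix Cfsg.Agent.H4
open scoped MatrixGroups

theorem sm_mem_center {F : Type*} [Field F] {p s : F} (h : p * s - 0 * 0 = 1) (e : p = s) :
    sm p 0 0 s h ∈ center SL(2, F) := by
  subst e
  rw [mem_center_iff]
  intro g
  obtain ⟨a, b, c, d, h', rfl⟩ := sm_surj g
  rw [sm_mul, sm_mul, sm_inj]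
  refine ⟨by ring, by ring, by ring, by ring⟩

theorem SL2_center_of_comm_conj {F : Type*} [Field F] (h2 : (2 : F) ≠ 0) {a b : SL(2, F)}
    (h : ∀ g : SL(2, F), b * (g * a * g⁻¹) = (g * a * g⁻¹) * b) :
    a ∈ center SL(2, F) ∨ b ∈ center SL(2, F) := by
  obtain ⟨p, q, r, s, ha, rfl⟩ := sm_surj a
  obtain ⟨x, y, z, w, hb, rfl⟩ := sm_surj b
  have h0 := h 1
  have h1 := h (sm 1 1 0 1 (by simp))
  have h1' := h (sm 1 (-1) 0 1 (by simp))
  have h3 := h (sm 1 0 1 1 (by simp))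
  have h3' := h (sm 1 0 (-1) 1 (by simp))
  simp only [one_mul, inv_one, mul_one] at h0
  simp only [sm_inv, sm_mul, sm_inj] at h0 h1 h1' h3 h3'
  obtain ⟨a0, b0, c0, -⟩ := h0
  obtain ⟨a1, b1, c1, -⟩ := h1
  obtain ⟨a2, b2, c2, -⟩ := h1'
  obtain ⟨a3, b3, c3, -⟩ := h3
  obtain ⟨a4, b4, c4, -⟩ := h3'
  have ze : z * (p - s) = 0 := mul_left_cancel₀ h2 (by linear_combination a1 - a2)
  have dr : (x - w) * r = 0 := mul_left_cancel₀ h2 (by linear_combination 2 * b0 - b1 - b2)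
  have zr : z * r = 0 := mul_left_cancel₀ h2 (by linear_combination a1 + a2 - 2 * a0)
  have ye : y * (p - s) = 0 := mul_left_cancel₀ h2 (by linear_combination a3 - a4)
  have yq : y * q = 0 := mul_left_cancel₀ h2 (by linear_combination 2 * a0 - a3 - a4)
  have dq : (x - w) * q = 0 := mul_left_cancel₀ h2 (by linear_combination c3 + c4 - 2 * c0)
  have zq : y * r = z * q := by linear_combination a0
  have de : (x - w) * (p - s) = - 2 * (r * y) := by linear_combination b0 - b1 - dr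
  by_cases hq : q = 0
  · by_cases hr : r = 0
    · subst hq hr
      by_cases he : p - s = 0
      · exact Or.inl (sm_mem_center ha (by linear_combination he))
      · have hz : z = 0 := (mul_eq_zero.1 ze).resolve_right he
        have hy : y = 0 := (mul_eq_zero.1 ye).resolve_right he
        subst hz hy
        refine Or.inr (sm_mem_center hb ?_)
        have : (x - w) * (p - s) = 0 := by linear_combination de
        linear_combination (mul_eq_zero.1 this).resolve_right he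
    · have hz : z = 0 := (mul_eq_zero.1 zr).resolve_right hr
      have hd : x - w = 0 := (mul_eq_zero.1 dr).resolve_right hr
      have hy : y = 0 := by
        have : y * r = 0 := by rw [zq, hz, zero_mul]
        exact (mul_eq_zero.1 this).resolve_right hr
      subst hz hy
      exact Or.inr (sm_mem_center hb (by linear_combination hd))
  · have hy : y = 0 := (mul_eq_zero.1 yq).resolve_right hq
    have hd : x - w = 0 := (mul_eq_zero.1 dq).resolve_right hq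
    have hz : z = 0 := by
      have : z * q = 0 := by rw [← zq, hy, zero_mul]
      exact (mul_eq_zero.1 this).resolve_right hq
    subst hz hy
    exact Or.inr (sm_mem_center hb (by linear_combination hd))

variable {G : Type*} [Group G]

/-- The properties of `L ≅ SL₂(q)`, `q` odd, with central involution `j`. -/
structure SLish (L : Subgroup G) (j : G) : Prop where
  ne : j ≠ 1
  sq : j * j = 1
  inv : ∀ g ∈ L, g * g = 1 → g = 1 ∨ g = j
  ex : ∃ a ∈ L, a * a = j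
  conj : ∀ a ∈ L, ∀ b ∈ L, a * a = j → b * b = j → ∃ c ∈ L, c * a * c⁻¹ = b
  cen : ∀ a ∈ L, ∀ b ∈ L, (∀ g ∈ L, b * (g * a * g⁻¹) = (g * a * g⁻¹) * b) → (a = 1 ∨ a = j) ∨ (b = 1 ∨ b = j)

theorem two_ne_zero_of_odd {F : Type*} [Field F] [Fintype F] (hF : Odd (Fintype.card F)) : (2 : F) ≠ 0 := by
  intro h2
  have h1 : (Fintype.card F : F) = 0 := FiniteField.cast_card_eq_zero F
  obtain ⟨m, hm⟩ := hF
  rw [hm] at h1
  push_cast at h1
  rw [h2] at h1
  simp at h1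

theorem mem_zpowers_invol {j x : G} (hj : j * j = 1) : x ∈ zpowers j ↔ x = 1 ∨ x = j := by
  constructor
  · rintro ⟨k, rfl⟩
    have h2 : j ^ (2 : ℤ) = 1 := by rw [zpow_two, hj]
    rcases Int.even_or_odd' k with ⟨m, rfl | rfl⟩
    · left; simp only []; rw [_root_.zpow_mul, h2, _root_.one_zpow]
    · right; simp only []; rw [_root_.zpow_add, _root_.zpow_mul, h2, _root_.one_zpow, one_mul, zpow_one]
  · rintro (rfl | rfl)
    exacts [one_mem _, mem_zpowers _]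

theorem slish_of_equiv {F : Type*} [Field F] [Fintype F] (hF : Odd (Fintype.card F)) {L : Subgroup G}
    (e : L ≃* SL(2, F)) {j : G} (hj : orderOf j = 2) (hjL : j ∈ L) : SLish L j := by
  have h2 := two_ne_zero_of_odd hF
  have hj1 : j ≠ 1 := by rintro rfl; simp at hj
  have hjj : j * j = 1 := by rw [← pow_two, ← hj, pow_orderOf_eq_one]
  have ej : e ⟨j, hjL⟩ = -1 := by
    apply eq_neg_one_of_orderOf h2
    rw [e.orderOf_eq, ← hj]; exact (Subgroup.orderOf_mk j hjL)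
  have key : ∀ g (hg : g ∈ L), e ⟨g, hg⟩ = 1 ∨ e ⟨g, hg⟩ = -1 → g = 1 ∨ g = j := by
    rintro g hg (h | h)
    · left; exact congrArg Subtype.val (e.map_eq_one_iff.1 h)
    · right; exact congrArg Subtype.val (e.injective (h.trans ej.symm))
  have k4 : ∀ g (hg : g ∈ L), g * g = j → tr (e ⟨g, hg⟩) = 0 := by
    intro g hg h
    rw [← sq_eq_neg_one_iff h2, ← ej, pow_two, ← map_mul]
    congr 1; exact Subtype.ext h
  refine ⟨hj1, hjj, ?_, ?_, ?_, ?_⟩
  · intro g hg h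
    apply key g hg
    rw [← sq_eq_one_iff_SL h2, pow_two, ← map_mul, e.map_eq_one_iff]
    exact Subtype.ext h
  · refine ⟨e.symm (sm 0 1 (-1) 0 (by simp)), (e.symm _).2, ?_⟩
    have : (sm (0 : F) 1 (-1) 0 (by simp)) ^ 2 = -1 := by
      rw [sq_eq_neg_one_iff h2, tr_sm]; simp
    rw [← coe_mul, ← map_mul, ← pow_two, this, ← ej, e.symm_apply_apply]
  · intro a ha b hb h1 h3
    have : IsConj (e ⟨a, ha⟩) (e ⟨b, hb⟩) := by
      apply isConj_of_tr
      · rw [k4 a ha h1]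
        intro h
        apply h2
        have : (2 : F) * 2 = 0 := by linear_combination -h
        exact (mul_eq_zero.1 this).elim id id
      · rw [k4 a ha h1, k4 b hb h3]
    obtain ⟨c, hc⟩ := isConj_iff.1 this
    refine ⟨e.symm c, (e.symm c).2, ?_⟩
    have := congrArg (fun x => (e.symm x : G)) hc
    simpa using this
  · intro a ha b hb h
    have := SL2_center_of_comm_conj h2 (a := e ⟨a, ha⟩) (b := e ⟨b, hb⟩) (by
      intro g
      obtain ⟨g, rfl⟩ := e.surjective g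
      simp only [← map_mul, ← map_inv]
      congr 1
      exact Subtype.ext (h g g.2))
    rw [mem_center_SL2, mem_center_SL2] at this
    exact this.imp (key a ha) (key b hb)

theorem mem_sup_comm {L₁ L₂ : Subgroup G} (hc : ∀ x ∈ L₁, ∀ y ∈ L₂, x * y = y * x) {x : G}
    (hx : x ∈ L₁ ⊔ L₂) : ∃ a ∈ L₁, ∃ b ∈ L₂, x = a * b := by
  rw [sup_eq_closure] at hx
  induction hx using closure_induction with
  | mem x hx =>
    rcases hx with hx | hx
    · exact ⟨x, hx, 1, one_mem _, by simp⟩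
    · exact ⟨1, one_mem _, x, hx, by simp⟩
  | one => exact ⟨1, one_mem _, 1, one_mem _, by simp⟩
  | mul x y _ _ hx hy =>
    obtain ⟨a, ha, b, hb, rfl⟩ := hx
    obtain ⟨c, hc', d, hd, rfl⟩ := hy
    refine ⟨a * c, mul_mem ha hc', b * d, mul_mem hb hd, ?_⟩
    calc a * b * (c * d) = a * (b * c) * d := by group
      _ = _ := by rw [← hc c hc' b hb]; group
  | inv x _ hx =>
    obtain ⟨a, ha, b, hb, rfl⟩ := hx
    exact ⟨a⁻¹, inv_mem ha, b⁻¹, inv_mem hb, by rw [hc a ha b hb, _root_.mul_inv_rev]⟩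

theorem two_classes {L₁ L₂ : Subgroup G} {j : G} (h₁ : SLish L₁ j) (h₂ : SLish L₂ j)
    (hc : ∀ x ∈ L₁, ∀ y ∈ L₂, x * y = y * x) (hm : L₁ ⊓ L₂ = zpowers j) :
    ∃ x ∈ L₁ ⊔ L₂, orderOf x = 2 ∧ x ≠ j ∧
      ∀ y ∈ L₁ ⊔ L₂, orderOf y = 2 → y = j ∨ ∃ g ∈ L₁ ⊔ L₂, g * x * g⁻¹ = y := by
  haveI : Fact (Nat.Prime 2) := ⟨Nat.prime_two⟩
  have hm' : ∀ x ∈ L₁, x ∈ L₂ → x = 1 ∨ x = j := fun x a b =>
    (mem_zpowers_invol h₁.sq).1 (hm ▸ ⟨a, b⟩)
  have hj2 : j ∈ L₂ := (show j ∈ L₁ ⊓ L₂ from hm ▸ mem_zpowers j).2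
  obtain ⟨a, ha, haa⟩ := h₁.ex
  obtain ⟨b, hb, hbb⟩ := h₂.ex
  have ha2 : a ∉ L₂ := by
    intro h
    rcases hm' a ha h with rfl | rfl
    · exact h₁.ne (by simpa using haa.symm)
    · exact h₁.ne (haa.symm.trans h₁.sq)
  have hsq : ∀ c ∈ L₁, ∀ d ∈ L₂, c * d * (c * d) = c * c * (d * d) := by
    intro c hc' d hd
    calc c * d * (c * d) = c * (d * c) * d := by group
      _ = _ := by rw [← hc c hc' d hd]; group
  refine ⟨a * b, mul_mem_sup ha hb, ?_, ?_, ?_⟩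
  · apply orderOf_eq_prime
    · rw [pow_two, hsq a ha b hb, haa, hbb, h₁.sq]
    · intro h
      exact ha2 (by rw [eq_inv_of_mul_eq_one_left h]; exact inv_mem hb)
  · intro h
    exact ha2 (by rw [eq_mul_inv_of_mul_eq h]; exact mul_mem hj2 (inv_mem hb))
  · intro y hy hy2
    obtain ⟨c, hc', d, hd, rfl⟩ := mem_sup_comm hc hy
    have e : c * c * (d * d) = 1 := by rw [← hsq c hc' d hd, ← pow_two, ← hy2, pow_orderOf_eq_one]
    have hcc : c * c ∈ L₂ := by rw [eq_inv_of_mul_eq_one_left e]; exact inv_mem (mul_mem hd hd)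
    rcases hm' _ (mul_mem hc' hc') hcc with h | h
    · left
      rw [h, one_mul] at e
      have hne : c * d ≠ 1 := by intro h0; rw [h0] at hy2; simp at hy2
      rcases h₁.inv c hc' h with rfl | rfl <;> rcases h₂.inv d hd e with rfl | rfl
      · simp at hne
      · simp
      · simp
      · exact absurd h₁.sq hne
    · right
      have hdd : d * d = j := by
        rw [h] at e
        rw [eq_inv_of_mul_eq_one_right e, inv_eq_of_mul_eq_one_right h₁.sq]
      obtain ⟨u, hu, hua⟩ := h₁.conj a ha c hc' haa h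
      obtain ⟨v, hv, hvb⟩ := h₂.conj b hb d hd hbb hdd
      refine ⟨u * v, mul_mem_sup hu hv, ?_⟩
      calc u * v * (a * b) * (u * v)⁻¹ = u * (v * a) * (b * v⁻¹ * u⁻¹) := by group
        _ = u * a * ((v * b * v⁻¹) * u⁻¹) := by rw [← hc a ha v hv]; group
        _ = _ := by rw [hvb, ← hc _ (inv_mem hu) d hd, ← hua]; group

theorem factor_le {L₁ L₂ K K' : Subgroup G} {j : G} (h₁ : SLish L₁ j)
    (hc : ∀ x ∈ L₁, ∀ y ∈ L₂, x * y = y * x) (hj2 : j ∈ L₂)
    (hK : K ≤ L₁ ⊔ L₂) (hK' : K' ≤ L₁ ⊔ L₂) (hKK : ∀ x ∈ K, ∀ y ∈ K', x * y = y * x)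
    (nK : ∀ g ∈ L₁, ∀ x ∈ K, g * x * g⁻¹ ∈ K) (nK' : ∀ g ∈ L₁, ∀ x ∈ K', g * x * g⁻¹ ∈ K') :
    K ≤ L₂ ∨ K' ≤ L₂ := by
  have key : ∀ M : Subgroup G, M ≤ L₁ ⊔ L₂ → (∀ g ∈ L₁, ∀ x ∈ M, g * x * g⁻¹ ∈ M) → ¬ M ≤ L₂ →
      ∃ c ∈ M, c ∈ L₁ ∧ ¬ (c = 1 ∨ c = j) := by
    intro M hM nM hn
    obtain ⟨k, hk, hk2⟩ := SetLike.not_le_iff_exists.1 hn
    obtain ⟨a, ha, b, hb, rfl⟩ := mem_sup_comm hc (hM hk)
    by_contra hno
    push Not at hno
    have ha' : ¬ (a = 1 ∨ a = j) := by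
      rintro (rfl | rfl)
      · exact hk2 (by simpa using hb)
      · exact hk2 (mul_mem hj2 hb)
    apply ha'
    refine (h₁.cen a ha a ha ?_).elim id id
    intro g hg
    have hc1 : g * a * g⁻¹ * a⁻¹ ∈ M := by
      have : g * a * g⁻¹ * a⁻¹ = g * (a * b) * g⁻¹ * (a * b)⁻¹ := by
        calc g * a * g⁻¹ * a⁻¹ = g * a * (g⁻¹ * b) * (a * b)⁻¹ := by group
          _ = _ := by rw [hc _ (inv_mem hg) b hb]; group
      rw [this]; exact mul_mem (nM g hg _ hk) (inv_mem hk)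
    have hc2 : g * a * g⁻¹ * a⁻¹ ∈ L₁ := mul_mem (mul_mem (mul_mem hg ha) (inv_mem hg)) (inv_mem ha)
    by_cases h1 : g * a * g⁻¹ * a⁻¹ = 1
    · have : g * a * g⁻¹ = a := eq_of_mul_inv_eq_one h1
      rw [this]
    · have : g * a * g⁻¹ = j * a := eq_mul_of_mul_inv_eq ((hno _ hc1 hc2).resolve_left h1)
      rw [this, ← mul_assoc, hc a ha j hj2]
  by_contra hno
  push Not at hno
  obtain ⟨c, hcK, hc1, hcj⟩ := key K hK nK hno.1
  obtain ⟨d, hdK, hd1, hdj⟩ := key K' hK' nK' hno.2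
  rcases h₁.cen c hc1 d hd1 (fun g hg => (hKK _ (nK g hg c hcK) d hdK).symm) with h | h
  exacts [hcj h, hdj h]

theorem mem_map_conj {L : Subgroup G} {n x : G} :
    x ∈ L.map (MulAut.conj n).toMonoidHom ↔ n⁻¹ * x * n ∈ L := by
  constructor
  · rintro ⟨y, hy, rfl⟩; simpa [mul_assoc] using hy
  · intro h; exact ⟨_, h, by simp [mul_assoc]⟩

theorem swap_or_fix [Finite G] {L₁ L₂ : Subgroup G} {j : G} (h₁ : SLish L₁ j) (h₂ : SLish L₂ j)
    (hc : ∀ x ∈ L₁, ∀ y ∈ L₂, x * y = y * x) (hm : L₁ ⊓ L₂ = zpowers j) {n : G} (hnj : n⁻¹ * j * n = j)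
    (hn : ∀ x ∈ L₁ ⊔ L₂, n * x * n⁻¹ ∈ L₁ ⊔ L₂) (hn' : ∀ x ∈ L₁ ⊔ L₂, n⁻¹ * x * n ∈ L₁ ⊔ L₂) :
    (L₁.map (MulAut.conj n).toMonoidHom = L₁ ∧ L₂.map (MulAut.conj n).toMonoidHom = L₂) ∨
    (L₁.map (MulAut.conj n).toMonoidHom = L₂ ∧ L₂.map (MulAut.conj n).toMonoidHom = L₁) := by
  have hj : j ∈ L₁ ⊓ L₂ := hm ▸ mem_zpowers j
  have hc' : ∀ x ∈ L₂, ∀ y ∈ L₁, x * y = y * x := fun x hx y hy => (hc y hy x hx).symm
  set K := L₁.map (MulAut.conj n).toMonoidHom with hKd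
  set K' := L₂.map (MulAut.conj n).toMonoidHom with hKd'
  have hK : K ≤ L₁ ⊔ L₂ := by rintro _ ⟨y, hy, rfl⟩; exact hn y (mem_sup_left hy)
  have hK' : K' ≤ L₁ ⊔ L₂ := by rintro _ ⟨y, hy, rfl⟩; exact hn y (mem_sup_right hy)
  have hKK : ∀ x ∈ K, ∀ y ∈ K', x * y = y * x := by
    rintro _ ⟨x, hx, rfl⟩ _ ⟨y, hy, rfl⟩
    rw [← map_mul, ← map_mul, hc x hx y hy]
  have n1 : ∀ g ∈ L₁ ⊔ L₂, ∀ x ∈ L₁, g * x * g⁻¹ ∈ L₁ := by
    intro g hg x hx
    obtain ⟨a, ha, b, hb, rfl⟩ := mem_sup_comm hc hg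
    have : a * b * x * (a * b)⁻¹ = a * x * a⁻¹ := by
      calc a * b * x * (a * b)⁻¹ = a * (b * x) * (a * b)⁻¹ := by group
        _ = _ := by rw [← hc x hx b hb]; group
    rw [this]; exact mul_mem (mul_mem ha hx) (inv_mem ha)
  have n2 : ∀ g ∈ L₁ ⊔ L₂, ∀ x ∈ L₂, g * x * g⁻¹ ∈ L₂ := by
    intro g hg x hx
    obtain ⟨a, ha, b, hb, rfl⟩ := mem_sup_comm hc hg
    have : a * b * x * (a * b)⁻¹ = b * x * b⁻¹ := by
      calc a * b * x * (a * b)⁻¹ = a * (b * x * b⁻¹) * a⁻¹ := by group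
        _ = _ := by rw [hc a ha _ (mul_mem (mul_mem hb hx) (inv_mem hb))]; group
    rw [this]; exact mul_mem (mul_mem hb hx) (inv_mem hb)
  have nK : ∀ g ∈ L₁ ⊔ L₂, ∀ x ∈ K, g * x * g⁻¹ ∈ K := by
    intro g hg x hx
    rw [mem_map_conj] at hx ⊢
    have := n1 _ (hn' g hg) _ hx
    convert this using 1; group
  have nK' : ∀ g ∈ L₁ ⊔ L₂, ∀ x ∈ K', g * x * g⁻¹ ∈ K' := by
    intro g hg x hx
    rw [mem_map_conj] at hx ⊢
    have := n2 _ (hn' g hg) _ hx
    convert this using 1; group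
  have A := factor_le h₁ hc hj.2 hK hK' hKK (fun g hg => nK g (mem_sup_left hg))
    (fun g hg => nK' g (mem_sup_left hg))
  have B := factor_le h₂ hc' hj.1 (sup_comm L₁ L₂ ▸ hK) (sup_comm L₁ L₂ ▸ hK') hKK
    (fun g hg => nK g (mem_sup_right hg)) (fun g hg => nK' g (mem_sup_right hg))
  have cK : Nat.card K = Nat.card L₁ := card_map_of_injective (MulAut.conj n).injective
  have cK' : Nat.card K' = Nat.card L₂ := card_map_of_injective (MulAut.conj n).injective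
  have bad : ∀ L : Subgroup G, SLish L j → L.map (MulAut.conj n).toMonoidHom ≤ L₁ →
      L.map (MulAut.conj n).toMonoidHom ≤ L₂ → False := by
    intro L hL a1 a2
    obtain ⟨a, ha, haa⟩ := hL.ex
    have hm1 : n * a * n⁻¹ ∈ L.map (MulAut.conj n).toMonoidHom := ⟨a, ha, rfl⟩
    have := (mem_zpowers_invol h₁.sq).1 (hm ▸ (mem_inf.2 ⟨a1 hm1, a2 hm1⟩ : n * a * n⁻¹ ∈ L₁ ⊓ L₂))
    rcases this with h | h
    · have : a = 1 := by simpa using h
      rw [this] at haa; exact h₁.ne (by simpa using haa.symm)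
    · have : a = j := by rw [← hnj, ← h]; group
      rw [this] at haa; exact h₁.ne (haa.symm.trans h₁.sq)
  rcases A with A | A <;> rcases B with B | B
  · exact (bad L₁ h₁ B A).elim
  · right
    have c1 := card_le_of_le A
    have c2 := card_le_of_le B
    exact ⟨eq_of_le_of_card_ge A (by omega), eq_of_le_of_card_ge B (by omega)⟩
  · left
    exact ⟨eq_of_le_of_card_ge B (by omega), eq_of_le_of_card_ge A (by omega)⟩
  · exact (bad L₂ h₂ B A).elim

end Cfsg.Agent.H9
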