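import Cfsg.Agent.H9.FInd

/-!
Criteria for the fusion system of a finite group to be simple.
-/

set_option autoImplicit false
set_option linter.unusedSectionVars false

namespace Cfsg.Agent.H9

open Cfsg Cfsg.FusionSystem Equiv
open scoped commutatorElement

section fs
variable {Ω : Type*} [Group Ω] {S : Subgroup Ω} [Finite S] {p : ℕ} [hp : Fact p.Prime]
  {F : FusionSystem S} {T : Subgroup Ω}

theorem Sat.focal_le_of_aut (h : Sat p F) (hT : F.StronglyClosed T)
    (hA : ∀ α, Iso F S S α → ∀ x ∈ S, x⁻¹ * α x ∈ T) : F.focalSubgroup ≤ T := by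
  obtain ⟨G, _, S', _, E, f, hE⟩ := exists_quot F hT
  have h1 : ∀ α, Iso E S' S' α → ∀ x ∈ S', α x = x := fun α a x hx => by
    obtain ⟨β, b, c⟩ := hE.lift_iso a
    rw [hE.pre_top] at b c
    obtain ⟨y, hy, rfl⟩ := hE.exists_eq hx
    rw [c y hy, eq_comm, hE.eq_iff hy (b.maps hy)]
    exact hA β b y hy
  have hab : ∀ x ∈ S', ∀ y ∈ S', x * y = y * x := fun x hx y hy => by
    have := h1 _ (iso_cj E le_rfl ((N_self S').ge hx)) y hy
    rw [cj_apply, mul_inv_eq_iff_eq_mul] at this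
    exact this
  rw [← hE.im_eq_bot_iff (focal_le F), ← hE.focal_eq h, eq_bot_iff, focal_le_iff]
  intro P σ hσ x hx
  obtain ⟨α, a, b⟩ := normal_res ((hE.sat h).normal_of_abelian_sc (sc_top E) hab) hσ.le hσ
  rw [← b x hx, h1 α a x (hσ.le hx)]
  simp

theorem Sat.simple_of (h : Sat p F) (h0 : S ≠ ⊥) (hA : ∀ T, F.StronglyClosed T → T ≠ ⊥ → S ≤ T)
    (hB : ∀ E : FusionSystem S, Sat p E → Invar E F → ∀ α, Iso F S S α → Mor E S α) :
    F.IsSimple p := by
  refine ⟨h.sat, h0, fun T E hE => or_iff_not_imp_left.2 fun hT => ?_⟩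
  have a := (isNormalIn_iff h.pg).1 hE
  obtain rfl := le_antisymm a.le (hA T a.sc hT)
  exact ⟨rfl, hom_eq_of_mor fun P σ => ⟨Mor.of_sub a.sub, a.inv.mor_of_aut (hB E a.satE a.inv)⟩⟩

end fs

variable {G : Type*} [Group G] {p : ℕ} [hp : Fact p.Prime] {S T : Subgroup G}

/-- `T` is strongly closed in `S` with respect to `G`. -/
def SCl (S T : Subgroup G) : Prop := T ≤ S ∧ ∀ x ∈ T, ∀ g, g * x * g⁻¹ ∈ S → g * x * g⁻¹ ∈ T

theorem sCl_iff [Finite S] : SCl S T ↔ (groupFusionSystem S).StronglyClosed T := by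
  rw [(grpFS_group S).sc_iff]; simp [SCl]

theorem SCl.conj (h : SCl S T) {x y : G} (hx : x ∈ T) (hy : y ∈ S) (e : IsConj x y) : y ∈ T := by
  obtain ⟨g, rfl⟩ := _root_.isConj_iff.1 e
  exact h.2 x hx g hy

variable [Finite G]

/-- A nontrivial strongly closed subgroup contains a central element of order `p`. -/
theorem SCl.exists_central (h : SCl S T) (hS : IsPGroup p S) (h0 : T ≠ ⊥) :
    ∃ z ∈ T, orderOf z = p ∧ ∀ g ∈ S, g * z = z * g := by
  obtain ⟨z, a, b, c⟩ := H9.exists_central hS h.1 (fun g hg x hx => h.2 x hx g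
    (S.mul_mem (S.mul_mem hg (h.1 hx)) (S.inv_mem hg))) h0
  obtain ⟨k, e⟩ := IsPGroup.iff_orderOf.1 hS ⟨z, h.1 a⟩
  rw [← Subgroup.orderOf_coe] at e
  have hd : p ∣ orderOf z := by
    rw [e]; exact dvd_pow_self p (by rintro rfl; exact b (by simpa using e))
  exact ⟨z ^ (orderOf z / p), T.pow_mem a _, orderOf_pow_orderOf_div (orderOf_pos z).ne' hd,
    fun g hg => (Commute.pow_right (c g hg) _).eq⟩

/-- If `G = O^p(G)`, a strongly closed subgroup containing `[S, N(S)]` is all of `S`. -/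
theorem SCl.top_of_norm (h : SCl S T) (hs : Syl p S ⊤) (hG : pResidual p G = ⊤)
    (hN : ∀ g ∈ Subgroup.normalizer (S : Set G), ∀ x ∈ S, x⁻¹ * (g * x * g⁻¹) ∈ T) : S ≤ T := by
  have a := (grpFS_group S).sat hs
  refine le_trans ?_ ((hyp_le_focal (p := p) _).trans (a.focal_le_of_aut (sCl_iff.1 h)
    fun α b x hx => ?_))
  · rw [(grpFS_group S).hyp_eq hs, H2.resOf_top, hG]; simp
  · obtain ⟨g, -, c, -, d⟩ := (grpFS_group S).exists_cj_iso b
    rw [d x hx]
    exact hN g (mem_normalizer_of_finite fun y hy => c.maps hy) x hx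

theorem SCl.top_of_comm (h : SCl S T) (hs : Syl p S ⊤) (hG : pResidual p G = ⊤)
    (hN : Subgroup.normalizer (S : Set G) ≤ S ⊔ Subgroup.centralizer (S : Set G))
    (hc : ⁅S, S⁆ ≤ T) : S ≤ T := h.top_of_norm hs hG fun g hg x hx => by
  obtain ⟨a, ha, c, hc', rfl⟩ := (mem_sup_of_le_normalizer'
    (Subgroup.centralizer_le_normalizer _)).1 (hN hg)
  have : a * c * x * (a * c)⁻¹ = a * x * a⁻¹ := by
    rw [mul_assoc a c x, ← hc' x hx]; group
  rw [this, inv_mul_conj_eq]
  exact hc (Subgroup.commutator_mem_commutator (S.inv_mem hx) ha)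

/-- The main criterion. -/
theorem simple_of_crit (hs : Syl p S ⊤) (h0 : S ≠ ⊥) (hA : ∀ T, SCl S T → T ≠ ⊥ → S ≤ T)
    (hB : ∀ H : Subgroup G, S ≤ H → Subgroup.centralizer (S : Set G) ≤ H →
      (∀ R ≤ S, (∀ c : G, (∃ k, c ^ p ^ k = 1) → (∀ x ∈ R, x * c = c * x) → c ∈ R) →
        Subgroup.normalizer (S : Set G) ⊓ Subgroup.closure
          {y | y ∈ Subgroup.normalizer (R : Set G) ∧ ∃ k, y ^ p ^ k = 1} ≤ H) →
      Subgroup.normalizer (S : Set G) ≤ H) : (groupFusionSystem S).IsSimple p := by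
  have hF := grpFS_group S
  have a := hF.sat hs
  refine a.simple_of h0 (fun T b => hA T (sCl_iff.2 b)) fun E b c α d => ?_
  let K : ∀ R : Subgroup G, Subgroup G := fun R =>
    { carrier := {g | InK (E.autGroup R) (cj g)}
      one_mem' := by simpa using inK_one _
      mul_mem' := fun {x y} hx hy => by simpa using hx.mul hy
      inv_mem' := fun {x} hx => by simpa using hx.inv }
  obtain ⟨g, -, e, -, f⟩ := hF.exists_cj_iso d
  refine ((inK_autGroup le_rfl).1 (hB (K S) (fun x hx => (inK_autGroup le_rfl).2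
    (iso_cj E le_rfl ((N_self S).ge hx))) (fun x hx => (inK_one _).congr fun y hy => by
      simp [← hx y hy]) (fun R hR hC x hx => ?_)
        (mem_normalizer_of_finite fun y hy => e.maps hy))).mor.congr f
  have h1 : (groupFusionSystem S).IsCentric R := isCentric_iff.2 ⟨hR, fun Q σ k y hy => by
    obtain ⟨u, -, l, rfl, -⟩ := hF.exists_cj_iso k
    obtain ⟨n, m⟩ := hs.pg ⟨y, hy.1⟩
    have m' : y ^ p ^ n = 1 := congrArg Subtype.val m
    refine mem_img_cj.2 (hC _ ⟨n, ?_⟩ fun z hz => ?_)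
    · simpa [m'] using conj_pow (a := u⁻¹) (b := y) (i := p ^ n)
    · have := (mem_C.1 hy).2 _ (l.maps hz)
      rw [cj_apply] at this
      calc _ = u⁻¹ * (u * z * u⁻¹ * y) * u := by group
        _ = _ := by rw [this]; group⟩
  have h2 : x ∈ K R := (Subgroup.closure_le (K R)).2 (fun y hy => by
    obtain ⟨k, l⟩ := hy.2
    exact (inK_autGroup hR).2 (c.iso_of_pelt a (hF.iso_cj hR ⟨trivial, hy.1⟩) (k := k)
      fun z _ => by simp [← map_pow, l])) hx.2
  have h3 := hF.iso_cj le_rfl (g := x) ⟨trivial, hx.1⟩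
  exact (inK_autGroup le_rfl).2 ((a.mor_of_centric b c.sub h3.mor h1 hR
    ((inK_autGroup hR).1 h2).mor).iso_top)

theorem simple_of_selfnorm (hs : Syl p S ⊤) (h0 : S ≠ ⊥) (hA : ∀ T, SCl S T → T ≠ ⊥ → S ≤ T)
    (hN : Subgroup.normalizer (S : Set G) ≤ S ⊔ Subgroup.centralizer (S : Set G)) :
    (groupFusionSystem S).IsSimple p :=
  simple_of_crit hs h0 hA fun _ a b _ => hN.trans (sup_le a b)

/-- `G = O^p(G)`, `N(S) = S C(S)`, and every strongly closed subgroup containing a central element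
of order `p` contains `[S, S]`. -/
theorem simple_of_comm (hs : Syl p S ⊤) (h0 : S ≠ ⊥) (hG : pResidual p G = ⊤)
    (hN : Subgroup.normalizer (S : Set G) ≤ S ⊔ Subgroup.centralizer (S : Set G))
    (hA : ∀ T, SCl S T → ∀ z ∈ T, orderOf z = p → (∀ g ∈ S, g * z = z * g) → ⁅S, S⁆ ≤ T) :
    (groupFusionSystem S).IsSimple p :=
  simple_of_selfnorm hs h0 (fun T a b => let ⟨z, c, d, e⟩ := a.exists_central hs.pg b
    a.top_of_comm hs hG hN (hA T a z c d e)) hN

/-- One class of elements of order `p`. -/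
theorem simple_of_one_class (hs : Syl p S ⊤) (h0 : S ≠ ⊥) (hG : pResidual p G = ⊤)
    (hN : Subgroup.normalizer (S : Set G) ≤ S ⊔ Subgroup.centralizer (S : Set G))
    (h1 : ∀ x ∈ S, ∀ y ∈ S, orderOf x = p → orderOf y = p → IsConj x y)
    (h2 : ⁅S, S⁆ ≤ Subgroup.closure {x | x ∈ S ∧ orderOf x = p}) :
    (groupFusionSystem S).IsSimple p :=
  simple_of_comm hs h0 hG hN fun T a z b c _ => h2.trans ((Subgroup.closure_le T).2
    fun x hx => a.conj b hx.1 (h1 z (a.1 b) x hx.1 c hx.2))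

/-- Transfer along a surjection whose kernel meets the Sylow subgroup trivially. -/
theorem simple_of_hom {G' : Type*} [Group G'] (f : G →* G') (hf : Function.Surjective f)
    (hs : Syl p S ⊤) (hk : ∀ x ∈ S, f x = 1 → x = 1) (h : (groupFusionSystem S).IsSimple p)
    (S' : Sylow p G') : (groupFusionSystem (S' : Subgroup G')).IsSimple p := by
  have := Finite.of_surjective f hf
  have h1 := hs.map f
  rw [Subgroup.map_top_of_surjective f hf] at h1
  obtain ⟨a, -, e⟩ := (syl_top S').conj_eq h1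
  let f' := (MulAut.conj a).toMonoidHom.comp f
  have h2 : Function.Surjective f' := (MulAut.conj a).surjective.comp hf
  have h3 := (grpFS_group S).fac hs (pHom_hom f' ⊤) (E := groupFusionSystem (S' : Subgroup G'))
    (by rw [im_hom, Subgroup.map_top_of_surjective f' h2]; exact grpFS_group _) (by
      rw [im_hom]
      ext y
      obtain ⟨x, rfl⟩ := (MulAut.conj a).surjective y
      rw [MulAut.conj_apply, e, ← Subgroup.map_map]
      exact Subgroup.mem_map_iff_mem (f := (MulAut.conj a).toMonoidHom) (MulAut.conj a).injective)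
  have h4 : pre S f' ⊥ = ⊥ := eq_bot_iff.2 fun x hx => by
    obtain ⟨b, c⟩ := (pHom_hom f' S).mem_pre.1 hx
    exact hk x b (by simpa [f'] using c)
  exact (h4 ▸ h3).simple hs.pg h

theorem simple_sylow (hs : Syl p S ⊤) (h : (groupFusionSystem S).IsSimple p) (S' : Sylow p G) :
    (groupFusionSystem (S' : Subgroup G)).IsSimple p :=
  simple_of_hom (MonoidHom.id G) Function.surjective_id hs (fun _ _ h => h) h S'

theorem simple_of_equiv {G' : Type*} [Group G'] (f : G ≃* G') (hs : Syl p S ⊤)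
    (h : (groupFusionSystem S).IsSimple p) (S' : Sylow p G') :
    (groupFusionSystem (S' : Subgroup G')).IsSimple p :=
  simple_of_hom f.toMonoidHom f.surjective hs (fun _ _ h => by simpa using h) h S'

theorem pResidual_of_perfect (h : commutator G = ⊤) : pResidual p G = ⊤ := by
  by_contra hne
  have h1 := H2.isPGroup_quotient_pResidual p G
  have : Nontrivial (G ⧸ pResidual p G) := QuotientGroup.nontrivial_iff.2 hne
  have := h1.isNilpotent
  refine (IsSolvable.commutator_lt_top_of_nontrivial (G ⧸ pResidual p G)).ne ?_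
  rw [commutator, ← Subgroup.map_top_of_surjective _ (QuotientGroup.mk'_surjective _),
    ← Subgroup.map_commutator, ← commutator, h]

end Cfsg.Agent.H9
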