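import Cfsg.Agent.H9.PG
import Cfsg.Agent.H6.TT4

/-! Small facts on pairs of involutions. -/

set_option autoImplicit false

namespace Cfsg.Agent.H9

open Subgroup Cfsg.Agent.H6

variable {G : Type*} [Group G] {a b c d : G}

theorem dih_inv (sa : a * a = 1) (sb : b * b = 1) (n : ℕ) : a * (a * b) ^ n * a⁻¹ = ((a * b) ^ n)⁻¹ := by
  rw [← conj_pow, ← inv_pow, mul_inv_rev, inv_of_sq sa, inv_of_sq sb, ← mul_assoc, sa, one_mul]

theorem dih_inv' (sa : a * a = 1) (sb : b * b = 1) (n : ℕ) : b * (a * b) ^ n * b⁻¹ = ((a * b) ^ n)⁻¹ := by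
  rw [← conj_pow, ← inv_pow, mul_inv_rev, inv_of_sq sa, inv_of_sq sb, mul_assoc, mul_assoc, sb, mul_one]

theorem dih_succ (sa : a * a = 1) (n : ℕ) : a * (a * b) ^ (n + 1) = b * (a * b) ^ n := by
  rw [pow_succ', ← mul_assoc, ← mul_assoc, sa, one_mul]

theorem dih_step (sa : a * a = 1) (sb : b * b = 1) (n k : ℕ) :
    ((a * b) ^ k)⁻¹ * (a * (a * b) ^ n) * ((a * b) ^ k)⁻¹⁻¹ = a * (a * b) ^ (2 * k + n) := by
  rw [inv_inv, ← dih_inv sa sb k]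
  generalize a * b = t
  group

theorem dih_odd (sa : a * a = 1) (sb : b * b = 1) (k : ℕ) :
    ((a * b) ^ k)⁻¹ * b * ((a * b) ^ k)⁻¹⁻¹ = a * (a * b) ^ (2 * k + 1) := by
  rw [← dih_step sa sb, dih_succ sa 0, pow_zero, mul_one]

theorem dih_comm (sa : a * a = 1) (sb : b * b = 1) {n : ℕ} (h : (a * b) ^ n * (a * b) ^ n = 1) :
    Commute a ((a * b) ^ n) ∧ Commute b ((a * b) ^ n) :=
  ⟨comm_of_cj ((dih_inv sa sb n).trans (inv_of_sq h)), comm_of_cj ((dih_inv' sa sb n).trans (inv_of_sq h))⟩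

theorem conj_inv_odd (h : d * c * d⁻¹ = c⁻¹) {k : ℕ} (hk : c ^ (2 * k + 1) = 1) :
    (c ^ k)⁻¹ * d * (c ^ k)⁻¹⁻¹ = d * c⁻¹ := by
  have : (c ^ k)⁻¹ = d * c ^ k * d⁻¹ := by rw [← conj_pow, h, inv_pow]
  rw [inv_inv, this, eq_mul_inv_iff_mul_eq,
    show d * c ^ k * d⁻¹ * d * c ^ k * c = d * c ^ (2 * k + 1) by group, hk, mul_one]

theorem conjs_sq (hd : orderOf d = 2) : ∀ a ∈ conjugatesOf d, a * a = 1 := fun a ha => by
  obtain ⟨g, rfl⟩ := _root_.isConj_iff.1 ha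
  rw [← pow_two, conj_pow, ← hd, pow_orderOf_eq_one]; group

theorem conjs_cj (g : G) : ∀ a ∈ conjugatesOf d, g * a * g⁻¹ ∈ conjugatesOf d := fun _ ha =>
  IsConj.trans ha (_root_.isConj_iff.2 ⟨g, rfl⟩)

end Cfsg.Agent.H9
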